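import Cfsg.Agent.H321.Ker.AlgY

/-!
# S2187, non-toral `E`: the move (M6), algebraic part (helper46)

* `mono_mul`, `mono_inv` : products of monomial matrices;
* `mono_of_comm` : a matrix commuting with `diag(ω ^ i)` up to a scalar is monomial, with a cyclic permutation;
* `exists_diag` : a cyclic monomial matrix of order `p` is conjugate to `diag(ω ^ i)` in `SL_p(k)`;
* `imp_alg` : `ψ' : SL_{p+1}(k) → Y`, `f` acts as a cycle of order `p` fixing the last vector, `f ^ p = 1`, `f` fixed by a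
  Frobenius map `τ`: there is `y` with `y⁻¹ f y` diagonal, `y⁻¹ τ(y)` diagonal;
* `imp_other` : elements commuting with `f`.
-/

set_option autoImplicit false
set_option linter.unusedSectionVars false

universe u

namespace Cfsg.Agent.H46.X4

open Cfsg Cfsg.Geo Cfsg.Agent.H321.Ker
open scoped MatrixGroups Matrix commutatorElement
open Matrix.SpecialLinearGroup (toGL transvection)

section Mono

variable {n : ℕ} [NeZero n] {k : Type*} [Field k]

theorem mono_mul (π π' : Equiv.Perm (Fin n)) (d d' : Fin n → kˣ) :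
    mono π d * mono π' d' = mono (π * π') (fun j => d (π' j) * d' j) := by
  apply Units.ext
  ext i j
  rw [Units.val_mul, Matrix.mul_apply, Finset.sum_eq_single (π' j)]
  · rw [mono_coe, mono_coe, mono_coe, if_pos rfl, Equiv.Perm.mul_apply]
    by_cases h : i = π (π' j)
    · rw [if_pos h, if_pos h, Units.val_mul]
    · rw [if_neg h, if_neg h, zero_mul]
  · intro b _ hb
    rw [mono_coe π', if_neg hb, mul_zero]
  · simp

theorem sc_mono (z : kˣ) : sc n z = mono 1 (fun _ => z) := by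
  apply Units.ext
  ext i j
  rw [mono_coe, sc_coe, Matrix.smul_apply, Matrix.one_apply, Equiv.Perm.one_apply]
  split_ifs <;> simp

theorem mono_one : mono (1 : Equiv.Perm (Fin n)) (fun _ => (1 : kˣ)) = 1 := by
  rw [← sc_mono, sc_one]

theorem mono_inv (π : Equiv.Perm (Fin n)) (d : Fin n → kˣ) : (mono π d)⁻¹ = mono π⁻¹ (fun j => (d (π⁻¹ j))⁻¹) := by
  rw [inv_eq_iff_mul_eq_one, mono_mul, mul_inv_cancel, ← mono_one]
  congr 1
  funext j
  rw [mul_inv_cancel]

theorem it_mono (π : Equiv.Perm (Fin n)) (d : Fin n → kˣ) : it (mono π d) = mono π (fun j => (d j)⁻¹) := by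
  apply Units.ext
  ext i j
  rw [it_coe, mono_coe]
  rfl

theorem fr_mono (r e : ℕ) [Fact r.Prime] [CharP k r] (π : Equiv.Perm (Fin n)) (d : Fin n → kˣ) :
    fr r e (mono π d) = mono π (fun j => d j ^ r ^ e) := by
  have hq : r ^ e ≠ 0 := pow_ne_zero _ (Fact.out : r.Prime).ne_zero
  apply Units.ext
  ext i j
  rw [fr_apply, mono_coe, mono_coe]
  split_ifs
  · rw [Units.val_pow_eq_pow_val]
  · rw [zero_pow hq]

theorem tr_congr {i j i' j' : Fin n} (hij : i ≠ j) (hij' : i' ≠ j') (hi : i = i') (hj : j = j') (t : k) :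
    (transvection hij t : Matrix.SpecialLinearGroup (Fin n) k) = transvection hij' t := by
  subst hi hj
  rfl

theorem col_ne_zero (X : GL (Fin n) k) (j : Fin n) : ∃ i, (X : Matrix (Fin n) (Fin n) k) i j ≠ 0 := by
  by_contra hcon
  push Not at hcon
  have h1 : (X⁻¹ : GL (Fin n) k).1 * (X : Matrix (Fin n) (Fin n) k) = 1 := by
    rw [← Units.val_mul, inv_mul_cancel, Units.val_one]
  have h2 := congrFun (congrFun h1 j) j
  rw [Matrix.mul_apply, Matrix.one_apply_eq, Finset.sum_eq_zero] at h2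
  · exact zero_ne_one h2
  · intro i _
    rw [hcon i, mul_zero]

end Mono

section Diag

variable {p : ℕ} [hp : Fact p.Prime] [NeZero p] {k : Type u} [Field k]

/-- `diag(ω ^ i)` -/
def dl (p : ℕ) [NeZero p] {k : Type u} [Field k] (ω : kˣ) : GL (Fin p) k := mono 1 (fun i => ω ^ (i : ℕ))

theorem mono_of_comm {ω : kˣ} (hω : orderOf ω = p) {ζ : kˣ} {X : GL (Fin p) k}
    (h : X * dl p ω = sc p ζ * (dl p ω * X)) :
    ∃ a : Fin p, ζ * ω ^ (a : ℕ) = 1 ∧ ∃ d, X = mono (Equiv.addRight a) d := by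
  have h1 : ∀ i j, (X : Matrix (Fin p) (Fin p) k) i j ≠ 0 → ω ^ (j : ℕ) = ζ * ω ^ (i : ℕ) := by
    intro i j hij
    have h2 : ((X * dl p ω : GL (Fin p) k) : Matrix (Fin p) (Fin p) k) i j =
        ((sc p ζ * (dl p ω * X) : GL (Fin p) k) : Matrix (Fin p) (Fin p) k) i j := by rw [h]
    rw [Units.val_mul, Units.val_mul, Units.val_mul, sc_coe, Matrix.smul_mul, Matrix.one_mul, Matrix.smul_apply,
      Matrix.mul_apply, Matrix.mul_apply, Finset.sum_eq_single j, Finset.sum_eq_single i] at h2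
    · unfold dl at h2
      rw [mono_coe, mono_coe, Equiv.Perm.one_apply, Equiv.Perm.one_apply, if_pos rfl, if_pos rfl, smul_eq_mul] at h2
      apply Units.ext
      rw [Units.val_mul]
      have h3 : (X : Matrix (Fin p) (Fin p) k) i j * ((ω ^ (j : ℕ) : kˣ) : k) =
          (X : Matrix (Fin p) (Fin p) k) i j * ((ζ : k) * ((ω ^ (i : ℕ) : kˣ) : k)) := by rw [h2]; ring
      exact mul_left_cancel₀ hij h3
    · intro b _ hb
      unfold dl
      rw [mono_coe, Equiv.Perm.one_apply, if_neg (Ne.symm hb), zero_mul]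
    · simp
    · intro b _ hb
      unfold dl
      rw [mono_coe, Equiv.Perm.one_apply, if_neg hb, mul_zero]
    · simp
  obtain ⟨a, ha⟩ := col_ne_zero X 0
  have ha1 := h1 a 0 ha
  rw [Fin.val_zero, pow_zero] at ha1
  have h4 : ∀ i j, (X : Matrix (Fin p) (Fin p) k) i j ≠ 0 → i = j + a := by
    intro i j hij
    have h5 := h1 i j hij
    have h6 : ω ^ ((j : ℕ) + a) = ω ^ (i : ℕ) := by
      rw [pow_add, h5]
      calc ζ * ω ^ (i : ℕ) * ω ^ (a : ℕ) = (ζ * ω ^ (a : ℕ)) * ω ^ (i : ℕ) := by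
            rw [mul_assoc, mul_comm (ω ^ (i : ℕ)), ← mul_assoc]
        _ = _ := by rw [← ha1, one_mul]
    rw [pow_eq_pow_iff_modEq, hω] at h6
    apply Fin.ext
    rw [Fin.val_add]
    have h7 : (i : ℕ) % p = i := Nat.mod_eq_of_lt i.2
    rw [← h7]
    exact h6.symm
  refine ⟨a, ha1.symm, ?_⟩
  have h5 : ∀ j, (X : Matrix (Fin p) (Fin p) k) (j + a) j ≠ 0 := by
    intro j
    obtain ⟨i, hi⟩ := col_ne_zero X j
    rwa [h4 i j hi] at hi
  refine ⟨fun j => Units.mk0 _ (h5 j), ?_⟩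
  apply Units.ext
  ext i j
  rw [mono_coe, Equiv.coe_addRight]
  by_cases h6 : i = j + a
  · rw [if_pos h6, Units.val_mk0, h6]
  · rw [if_neg h6]
    by_contra h7
    exact h6 (h4 i j h7)

theorem addRight_zero : (Equiv.addRight (0 : Fin p)) = 1 := by
  ext i
  simp

theorem mono_of_comm' {ω : kˣ} (hω : orderOf ω = p) {X : GL (Fin p) k} (h : X * dl p ω = dl p ω * X) :
    ∃ d, X = mono 1 d := by
  obtain ⟨a, ha, d, hd⟩ := mono_of_comm (X := X) (ζ := 1) hω (by rw [sc_one, one_mul]; exact h)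
  rw [one_mul] at ha
  have h1 := orderOf_dvd_of_pow_eq_one ha
  rw [hω] at h1
  have h2 : a = 0 := by
    apply Fin.ext
    rw [Fin.val_zero]
    exact Nat.eq_zero_of_dvd_of_lt h1 a.2
  rw [h2, addRight_zero] at hd
  exact ⟨d, hd⟩

theorem det_dl (h2 : p ≠ 2) {ω : kˣ} (hω : orderOf ω = p) : ((dl p ω : GL (Fin p) k) : Matrix (Fin p) (Fin p) k).det = 1 := by
  have h1 : ((dl p ω : GL (Fin p) k) : Matrix (Fin p) (Fin p) k) =
      Matrix.diagonal fun i : Fin p => ((ω ^ (i : ℕ) : kˣ) : k) := by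
    ext i j
    unfold dl
    rw [mono_coe, Matrix.diagonal_apply, Equiv.Perm.one_apply]
    by_cases h : i = j
    · rw [if_pos h, if_pos h, h]
    · rw [if_neg h, if_neg h]
  rw [h1, Matrix.det_diagonal, ← Units.coe_prod, Finset.prod_pow_eq_pow_sum]
  have h3 : (∑ i : Fin p, (i : ℕ)) * 2 = p * (p - 1) := by
    rw [Fin.sum_univ_eq_sum_range (fun i => i) p]
    exact Finset.sum_range_id_mul_two p
  have h4 : p ∣ ∑ i : Fin p, (i : ℕ) := by
    have h5 : p ∣ (∑ i : Fin p, (i : ℕ)) * 2 := ⟨_, h3⟩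
    exact (Nat.Coprime.dvd_mul_right ((Nat.coprime_primes hp.1 Nat.prime_two).2 h2)).1 h5
  rw [(orderOf_dvd_iff_pow_eq_one).1 (hω ▸ h4 : orderOf ω ∣ _), Units.val_one]

theorem val_succ' (i : Fin p) : ((i + 1 : Fin p) : ℕ) = ((i : ℕ) + 1) % p := val_succ i

/-- **Diagonalisation of a cyclic monomial matrix.** -/
theorem exists_diag [IsAlgClosed k] {ω : kˣ} (hω : orderOf ω = p) {g : Fin p → kˣ} (hg : ∏ i, g i = 1) :
    ∃ y : Matrix.SpecialLinearGroup (Fin p) k,
      (toGL y)⁻¹ * mono (Equiv.addRight (1 : Fin p)) g * toGL y = dl p ω := by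
  have hp0 : 0 < p := hp.1.pos
  -- the diagonal matrix
  set a' : ℕ → kˣ := fun m => ∏ j ∈ Finset.range m, g (Fin.ofNat p j) with ha'
  set a : Fin p → kˣ := fun i => a' i with ha
  have hofn : ∀ i : Fin p, Fin.ofNat p (i : ℕ) = i := fun i => Fin.ext (by
    rw [Fin.val_ofNat]; exact Nat.mod_eq_of_lt i.2)
  have hap : a' p = 1 := by
    rw [← hg, ha']
    beta_reduce
    rw [← Fin.prod_univ_eq_prod_range (fun j => g (Fin.ofNat p j)) p]
    exact Finset.prod_congr rfl fun i _ => by rw [hofn]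
  have has : ∀ i : Fin p, a (i + 1) = g i * a i := by
    intro i
    have h1 : a' ((i : ℕ) + 1) = g i * a i := by
      rw [ha', ha]
      beta_reduce
      rw [Finset.prod_range_succ, hofn, mul_comm]
    rw [← h1, ha]
    beta_reduce
    rw [val_succ']
    rcases Nat.lt_or_ge ((i : ℕ) + 1) p with h2 | h2
    · rw [Nat.mod_eq_of_lt h2]
    · have h3 : (i : ℕ) + 1 = p := by have := i.2; omega
      rw [h3, Nat.mod_self, hap, ha']
      simp
  have h1 : mono (Equiv.addRight (1 : Fin p)) g * mono 1 a = mono 1 a * mono (Equiv.addRight (1 : Fin p)) (fun _ => 1) := by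
    rw [mono_mul, mono_mul, mul_one, one_mul]
    congr 1
    funext j
    rw [Equiv.Perm.one_apply, Equiv.coe_addRight, has, mul_one]
  -- the Fourier matrix
  set ev : Fin p → kˣ := fun i => ω⁻¹ ^ (i : ℕ) with hev
  have hωi : orderOf ω⁻¹ = p := by rw [orderOf_inv, hω]
  have hevs : ∀ i, ev (i + 1) = ev i * ω⁻¹ := by
    intro i
    rw [hev]
    beta_reduce
    rw [val_succ', ← pow_succ]
    conv_rhs => rw [← pow_mod_orderOf, hωi]
  have hinj : Function.Injective fun i : Fin p => ((ev i : kˣ) : k) := by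
    intro i j hij
    have h2 : ω⁻¹ ^ (i : ℕ) = ω⁻¹ ^ (j : ℕ) := Units.ext hij
    rw [pow_eq_pow_iff_modEq, hωi] at h2
    apply Fin.ext
    rw [← Nat.mod_eq_of_lt i.2, ← Nat.mod_eq_of_lt j.2]
    exact h2
  have hdet : (Matrix.vandermonde fun i : Fin p => ((ev i : kˣ) : k)).det ≠ 0 := Matrix.det_vandermonde_ne_zero_iff.2 hinj
  set V : GL (Fin p) k := Matrix.GeneralLinearGroup.mkOfDetNeZero _ hdet with hV
  have hVc : ∀ i j, (V : Matrix (Fin p) (Fin p) k) i j = ((ev i ^ (j : ℕ) : kˣ) : k) := by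
    intro i j
    show Matrix.vandermonde (fun i : Fin p => ((ev i : kˣ) : k)) i j = _
    rw [Matrix.vandermonde_apply]
    exact (Units.val_pow_eq_pow_val _ _).symm
  have h2 : mono (Equiv.addRight (1 : Fin p)) (fun _ => (1 : kˣ)) * V = V * dl p ω := by
    apply Units.ext
    ext i j
    obtain ⟨i', rfl⟩ : ∃ i', i = i' + 1 := ⟨i - 1, by rw [sub_add_cancel]⟩
    rw [Units.val_mul, Units.val_mul, Matrix.mul_apply, Matrix.mul_apply, Finset.sum_eq_single i', Finset.sum_eq_single j]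
    · unfold dl
      rw [mono_coe, mono_coe, Equiv.coe_addRight, if_pos rfl, Equiv.Perm.one_apply, if_pos rfl, hVc, hVc, hevs,
        ← Units.val_mul, ← Units.val_mul]
      congr 1
      rw [mul_pow, mul_assoc, ← mul_pow, inv_mul_cancel, one_pow, mul_one, one_mul]
    · intro b _ hb
      unfold dl
      rw [mono_coe, Equiv.Perm.one_apply, if_neg hb, mul_zero]
    · simp
    · intro b _ hb
      rw [mono_coe, Equiv.coe_addRight, if_neg (fun h => hb (add_right_cancel h).symm), zero_mul]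
    · simp
  -- the matrix
  set B : GL (Fin p) k := mono 1 a * V with hB
  have h3 : mono (Equiv.addRight (1 : Fin p)) g * B = B * dl p ω := by
    rw [hB, ← mul_assoc, h1, mul_assoc, h2, mul_assoc]
  obtain ⟨z, hz⟩ := exists_root hp0 (Matrix.GeneralLinearGroup.det B)⁻¹
  have h4 : Matrix.GeneralLinearGroup.det (sc p z * B) = 1 := by
    have h5 : Matrix.GeneralLinearGroup.det (sc p z) = z ^ p := by
      apply Units.ext
      rw [Matrix.GeneralLinearGroup.val_det_apply, sc_coe, Matrix.det_smul, Matrix.det_one, mul_one, Fintype.card_fin,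
        Units.val_pow_eq_pow_val]
    rw [map_mul, h5, hz, inv_mul_cancel]
  set y : Matrix.SpecialLinearGroup (Fin p) k := ⟨(sc p z * B).1, by
    have := congrArg Units.val h4
    rwa [Matrix.GeneralLinearGroup.val_det_apply, Units.val_one] at this⟩ with hy
  have hyy : toGL y = sc p z * B := Units.ext rfl
  refine ⟨y, ?_⟩
  rw [hyy, mul_assoc]
  have h6 : mono (Equiv.addRight (1 : Fin p)) g * (sc p z * B) = (sc p z * B) * dl p ω := by
    rw [← mul_assoc, ← sc_comm, mul_assoc, h3, ← mul_assoc]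
  rw [h6, inv_mul_cancel_left]

end Diag

section Main

variable {p : ℕ} [hp : Fact p.Prime] [NeZero p] {k : Type u} [Field k] [IsAlgClosed k] {r e : ℕ} [Fact r.Prime]
  [CharP k r] {Y : Type*} [Group Y]

theorem stm_coe {D : GL (Fin p) k} {uni : Bool} {x y : Matrix.SpecialLinearGroup (Fin p) k} :
    toGL (x⁻¹ * stm r e D uni y) = (toGL x)⁻¹ * stG r e D uni (toGL y) := by
  rw [map_mul, map_inv, toGL_stm]

/-- the product of the coefficients of a cycle -/
theorem prod_cycle {f : Y} (hfp : f ^ p = 1) {xb : Fin p → k → Y} (hinj : Function.Injective (xb 0)) {g : Fin p → kˣ}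
    (hf : ∀ i t, f * xb i t * f⁻¹ = xb (i + 1) ((g i : k) * t)) : ∏ i, g i = 1 := by
  have hp0 : 0 < p := hp.1.pos
  have hofn : ∀ i : Fin p, Fin.ofNat p (i : ℕ) = i := fun i => Fin.ext (by
    rw [Fin.val_ofNat]; exact Nat.mod_eq_of_lt i.2)
  have h1 : ∀ m : ℕ, ∀ t, f ^ m * xb 0 t * (f ^ m)⁻¹ =
      xb (Fin.ofNat p m) (((∏ j ∈ Finset.range m, g (Fin.ofNat p j) : kˣ) : k) * t) := by
    intro m
    induction m with
    | zero =>
      intro t
      rw [Finset.prod_range_zero, Units.val_one, one_mul, pow_zero, one_mul, inv_one, mul_one]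
      rfl
    | succ m ih =>
      intro t
      have h2 : f ^ (m + 1) * xb 0 t * (f ^ (m + 1))⁻¹ = f * (f ^ m * xb 0 t * (f ^ m)⁻¹) * f⁻¹ := by
        rw [pow_succ']; group
      have h3 : (Fin.ofNat p m + 1 : Fin p) = Fin.ofNat p (m + 1) := by
        apply Fin.ext
        rw [val_succ', Fin.val_ofNat, Fin.val_ofNat, Nat.mod_add_mod]
      rw [h2, ih, hf, h3, Finset.prod_range_succ, Units.val_mul]
      congr 1
      ring
  have h2 := h1 p 1
  rw [hfp, one_mul, inv_one, mul_one, mul_one] at h2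
  have h3 : Fin.ofNat p p = (0 : Fin p) := by
    apply Fin.ext
    rw [Fin.val_ofNat, Nat.mod_self, Fin.val_zero]
  rw [h3] at h2
  have h4 := hinj h2
  have h5 : ∏ j ∈ Finset.range p, g (Fin.ofNat p j) = ∏ i, g i := by
    rw [← Fin.prod_univ_eq_prod_range (fun j => g (Fin.ofNat p j)) p]
    exact Finset.prod_congr rfl fun i _ => by rw [hofn]
  rw [← h5]
  exact Units.ext (by rw [Units.val_one]; exact h4.symm)

/-- **The move, algebraic form.** -/
theorem imp_alg (h2 : p ≠ 2) {ω : kˣ} (hω : orderOf ω = p)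
    {ψ' : Matrix.SpecialLinearGroup (Fin (p + 1)) k →* Y}
    (hinj' : ∀ (i j : Fin (p + 1)) (hij : i ≠ j), Function.Injective fun t : k => ψ' (transvection hij t))
    {ψ : Matrix.SpecialLinearGroup (Fin p) k →* Y}
    (hψ : ∀ (i j : Fin p) (hij : i ≠ j) (t : k),
      ψ (transvection hij t) = ψ' (transvection ((Fin.castSucc_injective p).ne hij) t))
    {f : Y} (hfp : f ^ p = 1) {π' : Equiv.Perm (Fin (p + 1))} (hπ : ∀ i : Fin p, π' i.castSucc = (i + 1).castSucc)
    (hπl : π' (Fin.last p) = Fin.last p) {c : Fin (p + 1) → Fin (p + 1) → k} (hc0 : ∀ i j, i ≠ j → c i j ≠ 0)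
    (hf : ∀ (i j : Fin (p + 1)) (hij : i ≠ j) (t : k),
      f * ψ' (transvection hij t) * f⁻¹ = ψ' (transvection (π'.injective.ne hij) (c i j * t)))
    {τ : Y →* Y} (hτf : τ f = f) {s : Fin (p + 1) → Fin (p + 1) → k} (hs0 : ∀ i j, i ≠ j → s i j ≠ 0)
    (hτ : (ω ^ r ^ e = ω ∧ ∀ (i j : Fin (p + 1)) (hij : i ≠ j) (t : k),
        τ (ψ' (transvection hij t)) = ψ' (transvection hij (s i j * t ^ r ^ e))) ∨
      (ω ^ (r ^ e + 1) = 1 ∧ ∀ (i j : Fin (p + 1)) (hij : i ≠ j) (t : k),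
        τ (ψ' (transvection hij t)) = ψ' (transvection hij.symm (s i j * t ^ r ^ e)))) :
    ∃ (g : Fin p → kˣ) (P y : Matrix.SpecialLinearGroup (Fin p) k)
      (T₀ : Matrix.SpecialLinearGroup (Fin p) k →* Matrix.SpecialLinearGroup (Fin p) k),
      toGL P = mono (Equiv.addRight (1 : Fin p)) g ∧ (∀ x, f * ψ x * f⁻¹ = ψ (P * x * P⁻¹)) ∧
      (∀ x, τ (ψ x) = ψ (T₀ x)) ∧ (∃ d, toGL (y⁻¹ * T₀ y) = mono 1 d) ∧
      (toGL y)⁻¹ * toGL P * toGL y = dl p ω := by
  have hn : 3 ≤ p := by have := hp.1.two_le; omega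
  have hp0 : 0 < p := hp.1.pos
  have hcs : ∀ i : Fin p, i.castSucc ≠ Fin.last p := fun i => (Fin.castSucc_lt_last i).ne
  have : NeZero (p + 1) := ⟨by omega⟩
  -- the coefficients of `f`
  obtain ⟨d', hd', -⟩ := exists_lin (φ := (MulAut.conj f).toMonoidHom) (r := r) (e := 0) (π := π') (c := c)
    (by omega : 3 ≤ p + 1) hinj' hc0 (fun i j hij t => by
      show f * ψ' (transvection hij t) * f⁻¹ = _
      rw [hf, pow_zero, pow_one])
  set g : Fin p → kˣ := fun i => d' i.castSucc * (d' (Fin.last p))⁻¹ with hg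
  have hg1 : ∀ i : Fin p, c i.castSucc (Fin.last p) = (g i : k) := by
    intro i
    rw [hd' _ _ (hcs i), hg, Units.val_mul]
  have hg2 : ∀ i : Fin p, c (Fin.last p) i.castSucc = ((g i)⁻¹ : kˣ) := by
    intro i
    rw [hd' _ _ (hcs i).symm, hg, mul_inv_rev, inv_inv, Units.val_mul]
  have hg3 : ∀ i j : Fin p, i ≠ j → c i.castSucc j.castSucc = (g i : k) * ((g j)⁻¹ : kˣ) := by
    intro i j hij
    rw [hd' _ _ ((Fin.castSucc_injective p).ne hij), hg, ← Units.val_mul, ← Units.val_mul]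
    congr 1
    group
  have hprod : ∏ i, g i = 1 := by
    refine prod_cycle hfp (xb := fun i t => ψ' (transvection (hcs i) t)) (hinj' _ _ _) (g := g) fun i t => ?_
    rw [hf, hg1]
    congr 1
    exact tr_congr _ _ (hπ i) hπl _
  obtain ⟨y, hy⟩ := exists_diag hω hprod
  -- `P`
  have hdet : ((mono (Equiv.addRight (1 : Fin p)) g : GL (Fin p) k) : Matrix (Fin p) (Fin p) k).det = 1 := by
    have h3 : mono (Equiv.addRight (1 : Fin p)) g = toGL y * dl p ω * (toGL y)⁻¹ := by rw [← hy]; group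
    have h4 : ((dl p ω : GL (Fin p) k)) ∈ specialLinear (Fin p) k := mem_SL_iff.2 (det_dl h2 hω)
    have h5 := conj_mem_SL (toGL y) h4
    rw [← h3] at h5
    exact mem_SL_iff.1 h5
  set P : Matrix.SpecialLinearGroup (Fin p) k := ⟨(mono (Equiv.addRight (1 : Fin p)) g).1, hdet⟩ with hP
  have hPP : toGL P = mono (Equiv.addRight (1 : Fin p)) g := Units.ext rfl
  have hfP : ∀ x, f * ψ x * f⁻¹ = ψ (P * x * P⁻¹) := by
    have h3 : (MulAut.conj f).toMonoidHom.comp ψ = ψ.comp (MulAut.conj P).toMonoidHom := by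
      refine hom_ext_transvection hn fun i j hij t => ?_
      show f * ψ (transvection hij t) * f⁻¹ = ψ (P * transvection hij t * P⁻¹)
      have h4 : P * transvection hij t * P⁻¹ = cj (mono (Equiv.addRight (1 : Fin p)) g) (transvection hij t) := by
        apply toGL_inj'
        rw [toGL_cj, map_mul, map_mul, map_inv, hPP]
      rw [h4, cj_mono, hψ, hψ, hf, hg3 i j hij]
      congr 1
      have h5 : (g i : k) * ((g j)⁻¹ : kˣ) * t = (g i : k) * t * ((g j)⁻¹ : kˣ) := by ring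
      rw [h5]
      exact tr_congr _ _ (hπ i) (hπ j) _
    exact fun x => DFunLike.congr_fun h3 x
  have hy' : toGL y * dl p ω * (toGL y)⁻¹ = toGL P := by rw [← hy, hPP]; group
  -- the end
  have hend : ∀ T : GL (Fin p) k →* GL (Fin p) k, T (toGL P) = toGL P → T (dl p ω) = dl p ω →
      ∃ d, (toGL y)⁻¹ * T (toGL y) = mono 1 d := by
    intro T hT1 hT2
    refine mono_of_comm' hω ?_
    have h3 : T (toGL y) * dl p ω * (T (toGL y))⁻¹ = toGL P := by
      rw [← hT1, ← hy', map_mul, map_mul, map_inv, hT2]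
    rw [← hy'] at h3
    have h4 : T (toGL y) * dl p ω = toGL y * dl p ω * (toGL y)⁻¹ * T (toGL y) := by rw [← h3]; group
    rw [mul_assoc, h4]
    group
  have hfi : ∀ i : Fin p, ∀ t, τ (f * ψ' (transvection (hcs i) t) * f⁻¹) = f * τ (ψ' (transvection (hcs i) t)) * f⁻¹ := by
    intro i t
    rw [map_mul, map_mul, map_inv, hτf]
  have hfi1 : ∀ i : Fin p, ∀ t, f * ψ' (transvection (hcs i) t) * f⁻¹ =
      ψ' (transvection (hcs (i + 1)) ((g i : k) * t)) := by
    intro i t
    rw [hf, hg1]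
    congr 1
    exact tr_congr _ _ (hπ i) hπl _
  have hfi2 : ∀ i : Fin p, ∀ t, f * ψ' (transvection (hcs i).symm t) * f⁻¹ =
      ψ' (transvection (hcs (i + 1)).symm (((g i)⁻¹ : kˣ) * t)) := by
    intro i t
    rw [hf, hg2]
    congr 1
    exact tr_congr _ _ hπl (hπ i) _
  rcases hτ with ⟨hωq, hτ⟩ | ⟨hωq, hτ⟩
  · -- linear
    obtain ⟨σ', hσ', -⟩ := exists_lin (φ := τ) (r := r) (e := e) (π := 1) (c := s) (by omega : 3 ≤ p + 1) hinj' hs0 hτ
    set σ : Fin p → kˣ := fun i => σ' i.castSucc with hσ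
    have hrel : ∀ i : Fin p, σ (i + 1) * g i ^ r ^ e = g i * σ i := by
      intro i
      have h3 := hfi i 1
      rw [hfi1, hτ, hτ, hfi1] at h3
      have h4 := hinj' _ _ _ h3
      rw [hσ' _ _ (hcs (i + 1)), hσ' _ _ (hcs i), mul_one, one_pow, mul_one] at h4
      apply Units.ext
      rw [Units.val_mul, Units.val_mul, Units.val_pow_eq_pow_val]
      have h5 : ((σ' (Fin.last p))⁻¹ : kˣ).1 ≠ 0 := Units.ne_zero _
      apply mul_right_cancel₀ h5
      calc (σ (i + 1) : k) * (g i : k) ^ r ^ e * ((σ' (Fin.last p))⁻¹ : kˣ).1 =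
            (σ' (i + 1).castSucc : k) * ((σ' (Fin.last p))⁻¹ : kˣ).1 * (g i : k) ^ r ^ e := by rw [hσ]; ring
        _ = _ := by rw [h4, hσ]; ring
    refine ⟨g, P, y, stm r e (mono 1 σ) false, hPP, hfP, ?_, ?_, by rw [hPP]; exact hy⟩
    · have h3 : τ.comp ψ = ψ.comp (stm r e (mono 1 σ) false) := by
        refine hom_ext_transvection hn fun i j hij t => ?_
        rw [MonoidHom.comp_apply, MonoidHom.comp_apply, stm_false_transvection, hψ, hψ, hτ,
          hσ' _ _ ((Fin.castSucc_injective p).ne hij)]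
        congr 1
        have h5 : (σ' i.castSucc : k) * ((σ' j.castSucc)⁻¹ : kˣ) * t ^ r ^ e =
          (σ i : k) * t ^ r ^ e * ((σ j)⁻¹ : kˣ) := by rw [hσ]; ring
        rw [h5]
        exact tr_congr _ _ rfl rfl _
      exact fun x => DFunLike.congr_fun h3 x
    · rw [stm_coe]
      refine hend _ ?_ ?_
      · rw [hPP, stG_false, fr_mono, mono_inv, mono_mul, mono_mul, inv_one, one_mul, mul_one]
        congr 1
        funext j
        rw [Equiv.Perm.one_apply, Equiv.coe_addRight, hrel, mul_assoc, mul_inv_cancel, mul_one]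
      · unfold dl
        rw [stG_false, fr_mono, mono_inv, mono_mul, mono_mul, inv_one, one_mul, mul_one]
        congr 1
        funext j
        rw [Equiv.Perm.one_apply, Equiv.Perm.one_apply, ← pow_mul, mul_comm (j : ℕ), pow_mul, hωq, mul_comm (σ j),
          mul_assoc, mul_inv_cancel, mul_one]
  · -- unitary
    obtain ⟨σ', hσ', -⟩ := exists_uni (φ := τ) (r := r) (e := e) (π := 1) (c := s) (by omega : 3 ≤ p + 1) hinj' hs0 hτ
    set σ : Fin p → kˣ := fun i => σ' i.castSucc with hσ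
    have hrel : ∀ i : Fin p, σ (i + 1) = g i * g i ^ r ^ e * σ i := by
      intro i
      have h3 := hfi i 1
      rw [hfi1, hτ, hτ, hfi2] at h3
      have h4 := hinj' _ _ _ h3
      rw [hσ' _ _ (hcs (i + 1)), hσ' _ _ (hcs i), mul_one, one_pow, mul_one] at h4
      -- `-(σ'_l σ'_{i+1}⁻¹) g^q = g⁻¹ (-(σ'_l σ'_i⁻¹))`
      have h5 : (σ' (Fin.last p))  * (σ (i + 1))⁻¹ * g i ^ r ^ e = (g i)⁻¹ * ((σ' (Fin.last p)) * (σ i)⁻¹) := by
        apply Units.ext
        have h6 : -((σ' (Fin.last p) : k) * ((σ' (i + 1).castSucc)⁻¹ : kˣ)) * (g i : k) ^ r ^ e =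
          -(((g i)⁻¹ : kˣ) * ((σ' (Fin.last p) : k) * ((σ' i.castSucc)⁻¹ : kˣ))) := by rw [h4]; ring
        rw [neg_mul, neg_inj] at h6
        rw [Units.val_mul, Units.val_mul, Units.val_mul, Units.val_mul, Units.val_pow_eq_pow_val]
        exact h6
      have h7 : (σ (i + 1))⁻¹ * g i ^ r ^ e = (g i)⁻¹ * (σ i)⁻¹ := by
        apply mul_left_cancel (a := σ' (Fin.last p))
        rw [← mul_assoc, h5, ← mul_assoc, ← mul_assoc, mul_comm (g i)⁻¹]
      calc σ (i + 1) = g i * σ i * ((g i)⁻¹ * (σ i)⁻¹) * σ (i + 1) := by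
            rw [← mul_inv, mul_inv_cancel, one_mul]
        _ = g i * σ i * ((σ (i + 1))⁻¹ * g i ^ r ^ e) * σ (i + 1) := by rw [h7]
        _ = g i * g i ^ r ^ e * σ i * ((σ (i + 1))⁻¹ * σ (i + 1)) := by
            simp only [mul_assoc, mul_comm, mul_left_comm]
        _ = _ := by rw [inv_mul_cancel, mul_one]
    refine ⟨g, P, y, stm r e (mono 1 σ) true, hPP, hfP, ?_, ?_, by rw [hPP]; exact hy⟩
    · have h3 : τ.comp ψ = ψ.comp (stm r e (mono 1 σ) true) := by
        refine hom_ext_transvection hn fun i j hij t => ?_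
        rw [MonoidHom.comp_apply, MonoidHom.comp_apply, stm_true_transvection, hψ, hψ, hτ,
          hσ' _ _ ((Fin.castSucc_injective p).ne hij)]
        congr 1
        have h5 : -((σ' j.castSucc : k) * ((σ' i.castSucc)⁻¹ : kˣ)) * t ^ r ^ e =
          (σ j : k) * -(t ^ r ^ e) * ((σ i)⁻¹ : kˣ) := by rw [hσ]; ring
        rw [h5]
        exact tr_congr _ _ rfl rfl _
      exact fun x => DFunLike.congr_fun h3 x
    · rw [stm_coe]
      refine hend _ ?_ ?_
      · rw [hPP, stG_true, fr_mono, it_mono, mono_inv, mono_mul, mono_mul, inv_one, one_mul, mul_one]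
        congr 1
        funext j
        rw [Equiv.Perm.one_apply, Equiv.coe_addRight, hrel]
        calc g j * g j ^ r ^ e * σ j * (g j ^ r ^ e)⁻¹ * (σ j)⁻¹ =
              g j * (g j ^ r ^ e * (g j ^ r ^ e)⁻¹) * (σ j * (σ j)⁻¹) := by
                simp only [mul_assoc, mul_comm, mul_left_comm]
          _ = _ := by rw [mul_inv_cancel, mul_inv_cancel, mul_one, mul_one]
      · have hωq' : (ω ^ r ^ e)⁻¹ = ω := by
          rw [pow_succ] at hωq
          exact (eq_inv_of_mul_eq_one_right hωq).symm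
        unfold dl
        rw [stG_true, fr_mono, it_mono, mono_inv, mono_mul, mono_mul, inv_one, one_mul, mul_one]
        congr 1
        funext j
        rw [Equiv.Perm.one_apply, Equiv.Perm.one_apply, ← pow_mul, mul_comm (j : ℕ), pow_mul, ← inv_pow, hωq',
          mul_comm (σ j), mul_assoc, mul_inv_cancel, mul_one]

/-- **The move, the elements commuting with `f`.** -/
theorem imp_other (r : ℕ) [Fact r.Prime] [CharP k r] (h2 : p ≠ 2) {ω : kˣ} (hω : orderOf ω = p) {ψ : Matrix.SpecialLinearGroup (Fin p) k →* Y}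
    (hinj : ∀ (i j : Fin p) (hij : i ≠ j), Function.Injective fun t : k => ψ (transvection hij t))
    {f : Y} {P y : Matrix.SpecialLinearGroup (Fin p) k} (hfP : ∀ x, f * ψ x * f⁻¹ = ψ (P * x * P⁻¹))
    (hy : (toGL y)⁻¹ * toGL P * toGL y = dl p ω) {x : Y} (hxf : x * f = f * x) {a : Fin p} {c : Fin p → Fin p → k}
    (hc0 : ∀ i j, i ≠ j → c i j ≠ 0)
    (hx : ∀ (i j : Fin p) (hij : i ≠ j) (t : k),
      x * ψ (transvection hij t) * x⁻¹ = ψ (transvection ((Equiv.addRight a).injective.ne hij) (c i j * t))) :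
    ∃ (m : Matrix.SpecialLinearGroup (Fin p) k) (b : Fin p) (d : Fin p → kˣ),
      toGL m = mono (Equiv.addRight b) d ∧ x * ψ y * x⁻¹ = ψ (y * m) := by
  have hn : 3 ≤ p := by have := hp.1.two_le; omega
  have h01 : (0 : Fin p) ≠ 1 := by
    intro h
    have := congrArg Fin.val h
    rw [Fin.val_zero, Fin.val_one'] at this
    rw [Nat.mod_eq_of_lt (by omega)] at this
    omega
  have hψ : ∃ g, ψ g ≠ 1 := by
    refine ⟨transvection h01 1, fun h => ?_⟩
    have h3 : ψ (transvection h01 (1 : k)) = ψ (transvection h01 (0 : k)) := by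
      have h4 : transvection h01 (0 : k) = 1 := toGL_inj' (Units.ext (by rw [toGL_transvection]; simp))
      rw [h, h4, map_one]
    exact one_ne_zero (hinj 0 1 h01 h3)
  obtain ⟨d, -, hd⟩ := exists_lin (φ := (MulAut.conj x).toMonoidHom) (r := r) (e := 0) (π := Equiv.addRight a) (c := c)
    hn hinj hc0 (fun i j hij t => by
      show x * ψ (transvection hij t) * x⁻¹ = _
      rw [hx, pow_zero, pow_one])
  set Q : GL (Fin p) k := mono (Equiv.addRight a) d with hQ
  have hst : ∀ g, stm r 0 Q false g = cj Q g := by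
    intro g
    apply toGL_inj'
    rw [toGL_stm, stG_false, toGL_cj]
    have : fr r 0 (toGL g) = toGL g := by
      apply Units.ext
      ext i j
      rw [fr_apply]
      simp
    rw [this]
  have hQψ : ∀ g, x * ψ g * x⁻¹ = ψ (cj Q g) := by
    intro g
    rw [← hst]
    exact hd g
  have hPψ : ∀ g, f * ψ g * f⁻¹ = ψ (cj (toGL P) g) := by
    intro g
    have h4 : P * g * P⁻¹ = cj (toGL P) g := by
      apply toGL_inj'
      rw [toGL_cj, map_mul, map_mul, map_inv]
    rw [hfP, h4]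
  -- `Q P = ζ P Q`
  have h3 : (Q * toGL P)⁻¹ * (toGL P * Q) ∈ scalars (Fin p) k := by
    refine scalar_of_cj fun g => ?_
    have h4 : ∀ g, cj (toGL P * Q) g = cj (Q * toGL P) g := by
      intro g
      refine eq_of_psi hn hψ (f := (cj (toGL P * Q)).toMonoidHom) (g := (cj (Q * toGL P)).toMonoidHom) (fun g => ?_) g
      show ψ (cj (toGL P * Q) g) = ψ (cj (Q * toGL P) g)
      rw [map_mul, map_mul, MulAut.mul_apply, MulAut.mul_apply, ← hPψ, ← hQψ, ← hQψ, ← hPψ]
      calc f * (x * ψ g * x⁻¹) * f⁻¹ = (f * x) * ψ g * (f * x)⁻¹ := by group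
        _ = (x * f) * ψ g * (x * f)⁻¹ := by rw [hxf]
        _ = _ := by group
    rw [map_mul, MulAut.mul_apply, h4, ← MulAut.mul_apply, ← map_mul, inv_mul_cancel, map_one, MulAut.one_apply]
  obtain ⟨ζ, hζ⟩ := mem_scalars_iff_sc.1 h3
  have h5 : toGL P * Q = sc p ζ * (Q * toGL P) := by rw [sc_comm, ← hζ]; group
  set Q' : GL (Fin p) k := (toGL y)⁻¹ * Q * toGL y with hQ'
  have h6 : Q' * dl p ω = sc p ζ⁻¹ * (dl p ω * Q') := by
    have h7 : dl p ω * Q' = sc p ζ * (Q' * dl p ω) := by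
      rw [← hy, hQ']
      calc (toGL y)⁻¹ * toGL P * toGL y * ((toGL y)⁻¹ * Q * toGL y) = (toGL y)⁻¹ * (toGL P * Q) * toGL y := by group
        _ = ((toGL y)⁻¹ * sc p ζ) * (Q * toGL P) * toGL y := by rw [h5]; group
        _ = _ := by rw [← sc_comm]; group
    rw [h7, ← mul_assoc, ← sc_mul, inv_mul_cancel, sc_one, one_mul]
  obtain ⟨b, -, d', hd'⟩ := mono_of_comm hω h6
  refine ⟨y⁻¹ * cj Q y, b + -a, fun j => d' (j + -a) * (d (j + -a))⁻¹, ?_, ?_⟩
  · have h7 : toGL (y⁻¹ * cj Q y) = Q' * Q⁻¹ := by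
      rw [map_mul, map_inv, toGL_cj, hQ']; group
    have h8 : (Equiv.addRight a)⁻¹ = Equiv.addRight (-a) := by
      rw [inv_eq_iff_mul_eq_one]
      ext i
      simp
    rw [h7, hd', hQ, mono_inv, mono_mul, h8]
    have h9 : Equiv.addRight b * Equiv.addRight (-a) = Equiv.addRight (b + -a) := by
      apply Equiv.ext
      intro i
      show i + -a + b = i + (b + -a)
      rw [add_assoc, add_comm (-a)]
    rw [h9]
    rfl
  · rw [mul_inv_cancel_left, hQψ]

end Main

end Cfsg.Agent.H46.X4
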