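import Cfsg.Agent.H496.Mono.Base
import Cfsg.Agent.H46.X4.ImpAlg
import Cfsg.Agent.H46.Gen.PairW

/-!
# S2187, non-toral `E`: the move (M6), in a frame (helper46)

* `na`, `nr_na` : `x_a(t) x_{-a}(-1/t) x_a(t)` represents the reflection in `a`;
* `Ah` : homomorphisms `SL_n(k) → D.group k` with `E_ij(t) ↦ x_{ev i - ev j}(± t)`; `Ah.diag`, `Ah.cyc` : the images of
  diagonal matrices are in the torus, of cyclic monomial matrices in `N`;
* `afr_of_long` : frames of long roots from the Gram matrix;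
* `imp` : the move.
-/

set_option autoImplicit false
set_option linter.unusedSectionVars false

universe u

namespace Cfsg.Agent.H46.X4

open CoxeterSystem Cfsg Cfsg.Lie Cfsg.Lie.ChevalleyDatum
open Cfsg.Agent.ChevalleyStructure Cfsg.Agent.ChevalleyStructure.Elts Cfsg.Agent.ChevalleyStructure.CoxeterGeom
  Cfsg.Agent.ChevalleyStructure.CoxeterGeomTypes Cfsg.Agent.ChevalleyStructure.NPerm
open Cfsg.Agent.Tits.Roots Cfsg.Agent.Tits.Core Cfsg.Agent.Nodes Cfsg.Agent.Nodes.Reps Cfsg.Agent.Nodes.BNOf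
  Cfsg.Agent.Nodes.SubComb Cfsg.Agent.Nodes.RGDChev Cfsg.Agent.Nodes.Bruhat Cfsg.Agent.Nodes.Coroot
open Cfsg.Agent.KFacts.RgdField Cfsg.Agent.KFacts.RgdChevCoord
open Cfsg.Agent.BpExc Cfsg.Agent.BpExc.TorCent Cfsg.Agent.BpExc.TorChev Cfsg.Agent.BpExc.Tow
  Cfsg.Agent.BpExc.TowChev Cfsg.Agent.BpExc.Fr Cfsg.Agent.BpExc.LangFr Cfsg.Agent.BpExc.NChev
open Cfsg.Agent.H469.Exc Cfsg.Agent.H316.U6 Cfsg.Agent.H818.Gen Cfsg.Agent.H818.Mono Cfsg.Agent.H696.GmnToral
open Cfsg.Agent.H225.Gen (LL LL_rep LL_root LL_neg LL_long)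
open Cfsg.Agent.H496.Mono Cfsg.Agent.H46.Gen Cfsg.Agent.H321.Ker
open Cfsg.Agent.H818.StrP.UTab
open Matrix.SpecialLinearGroup (toGL transvection)
open scoped MatrixGroups

variable {D : ChevalleyDatum} {l : ℕ} {M : CoxeterMatrix (Fin l)} (hp : IsType D l M)

/-! ### the elements representing reflections -/

section Na

variable {k : Type u} [Field k]

/-- `x_a(t) x_{-a}(-1/t) x_a(t)` -/
noncomputable def na (v : Fin l → ℤ) (t : k) : ↥(D.group k) := xc hp v t * xc hp (-v) (-t⁻¹) * xc hp v t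

theorem coe_na {s : ℕ} (hs : s < D.nroots) (t : k) :
    ((na hp (vec D l s) t : ↥(D.group k)) : GL D.Idx k) = nG hp.inList s t := by
  unfold na
  rw [Subgroup.coe_mul, Subgroup.coe_mul, coe_xc hp hs, ← vec_neg hp hs, coe_xc hp (neg_lt hp.inList hs), nG_def,
    mul_assoc]

variable (r : ℕ) [Fact r.Prime]

theorem nr_na_aux (i : Fin l) (w : M.Group) : ∀ t : KK r, t ≠ 0 → NR hp r (rfl' M.toCoxeterSystem w i)
    (na hp (rep M.toCoxeterSystem hp.isCartan w (sr i)) t) := by
  induction w using M.toCoxeterSystem.simple_induction_left with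
  | one =>
    intro t ht
    have e1 : rfl' M.toCoxeterSystem 1 i = 1 * M.toCoxeterSystem.simple i := by unfold rfl'; group
    rw [map_one, Module.End.one_apply, e1, ← vec_simple hp i]
    have hs := simple_lt hp.inList (lt_rank hp i)
    have h1 : na hp (vec D l (D.simple i)) t = hc hp i t * nc hp (KK r) i := by
      apply Subtype.ext
      rw [coe_na hp hs, NConj.nG_eq]
      rfl
    rw [h1]
    exact nr_mul (nr_of_T (hc_mem hp i ht)) (rp_simple _ _ i)
  | mul_simple_left w j ih =>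
    intro t ht
    have hroot : IsRoot M.toCoxeterSystem hp.isCartan (rep M.toCoxeterSystem hp.isCartan w (sr i)) := ⟨w, i, rfl⟩
    obtain ⟨s, hs, e⟩ := (isRoot_iff hp M.toCoxeterSystem _).1 hroot
    obtain ⟨η, hη, h⟩ := MonomialNormal.nG_conj (F := KK r) hp.inList (SharpSign.sharp hp.inList) (lt_rank hp j) hs
    have hη2 : η * η = 1 := by rcases hη with rfl | rfl <;> norm_num
    have hη0 : η ≠ 0 := by
      rintro rfl
      rw [mul_zero] at hη2
      exact zero_ne_one hη2
    rw [rep_mul_apply, ← e, rep_vec hp _ j hs]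
    rw [← e] at ih
    have h1 : na hp (vec D l (D.reflectRoot j s)) t = nc hp (KK r) j * na hp (vec D l s) (η * t) * (nc hp (KK r) j)⁻¹ := by
      apply Subtype.ext
      rw [coe_na hp (reflectRoot_lt hp.inList (lt_rank hp j) hs), Subgroup.coe_mul, Subgroup.coe_mul, Subgroup.coe_inv,
        coe_na hp hs]
      have h2 := h (η * t)
      rw [← mul_assoc, hη2, one_mul] at h2
      exact h2.symm
    have e1 : rfl' M.toCoxeterSystem (M.toCoxeterSystem.simple j * w) i =
        M.toCoxeterSystem.simple j * rfl' M.toCoxeterSystem w i * (M.toCoxeterSystem.simple j)⁻¹ := by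
      unfold rfl'; group
    rw [h1, e1]
    exact nr_conj (ih _ (mul_ne_zero hη0 ht)) (rp_simple _ _ j)

/-- `s` is the reflection in `a` -/
def IsRfl (s : M.Group) (a : Fin l → ℤ) : Prop :=
  ∀ x, rep M.toCoxeterSystem hp.isCartan s x = x - cpr M.toCoxeterSystem hp.isCartan x a • a

theorem exists_rfl' {a : Fin l → ℤ} (ha : IsRoot M.toCoxeterSystem hp.isCartan a) : ∃ s, IsRfl hp s a := by
  have := finite_W hp M.toCoxeterSystem
  obtain ⟨w, i, rfl⟩ := ha
  exact ⟨rfl' M.toCoxeterSystem w i, fun x => rep_rfl'_eq _ _ w i x⟩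

theorem nr_na {a : Fin l → ℤ} (ha : IsRoot M.toCoxeterSystem hp.isCartan a) {s : M.Group} (hs : IsRfl hp s a)
    {t : KK r} (ht : t ≠ 0) : NR hp r s (na hp a t) := by
  have := finite_W hp M.toCoxeterSystem
  obtain ⟨w, i, rfl⟩ := ha
  have e : s = rfl' M.toCoxeterSystem w i := by
    refine rep_faithful hp M.toCoxeterSystem fun x _ => ?_
    rw [hs, rep_rfl'_eq]
  rw [e]
  exact nr_na_aux hp r i w t ht

theorem na_mul_inv_mem {a : Fin l → ℤ} (ha : IsRoot M.toCoxeterSystem hp.isCartan a) {t u : KK r} (ht : t ≠ 0)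
    (hu : u ≠ 0) : na hp a t * (na hp a u)⁻¹ ∈ TT D (KK r) := by
  obtain ⟨s, hs⟩ := exists_rfl' hp ha
  have h1 := nr_mul (nr_na hp r ha hs ht) (nr_inv (nr_na hp r ha hs hu))
  rw [mul_inv_cancel] at h1
  exact nr_mem_T h1

end Na

/-! ### the elements `w_ij(t)` of `SL_n` -/

section Wij

variable {n : ℕ} [NeZero n] {k : Type u} [Field k]

/-- `E_ij(t) E_ji(-1/t) E_ij(t)` -/
def wij {i j : Fin n} (hij : i ≠ j) (t : kˣ) : Matrix.SpecialLinearGroup (Fin n) k :=
  transvection hij (t : k) * transvection hij.symm (-(t : k)⁻¹) * transvection hij (t : k)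

theorem toGL_wij {i j : Fin n} (hij : i ≠ j) (t : kˣ) : toGL (wij (k := k) hij t) =
    mono (Equiv.swap i j) (fun m => if m = j then t else if m = i then -t⁻¹ else 1) := by
  have ht : (t : k) ≠ 0 := t.ne_zero
  apply Units.ext
  have h1 : (toGL (wij (k := k) hij t) : Matrix (Fin n) (Fin n) k) =
      1 + Matrix.single i j (t : k) + Matrix.single j i (-(t : k)⁻¹) + Matrix.single i i (-1) + Matrix.single j j (-1) := by
    unfold wij
    rw [map_mul, map_mul, Units.val_mul, Units.val_mul, coe_transvection, coe_transvection]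
    have hAA : Matrix.single i j (t : k) * Matrix.single i j (t : k) = 0 := Matrix.single_mul_single_of_ne _ _ _ _ hij.symm _
    have hAB : Matrix.single i j (t : k) * Matrix.single j i (-(t : k)⁻¹) = Matrix.single i i (-1) := by
      rw [Matrix.single_mul_single_same]
      congr 1
      field_simp
    have hBA : Matrix.single j i (-(t : k)⁻¹) * Matrix.single i j (t : k) = Matrix.single j j (-1) := by
      rw [Matrix.single_mul_single_same]
      congr 1
      field_simp
    have hABA : Matrix.single i i (-1 : k) * Matrix.single i j (t : k) = -Matrix.single i j (t : k) := by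
      rw [Matrix.single_mul_single_same, neg_one_mul, Matrix.single_neg]
    calc (1 + Matrix.single i j (t : k)) * (1 + Matrix.single j i (-(t : k)⁻¹)) * (1 + Matrix.single i j (t : k)) =
          1 + Matrix.single i j (t : k) + Matrix.single j i (-(t : k)⁻¹) +
            Matrix.single i j (t : k) * Matrix.single j i (-(t : k)⁻¹) +
            Matrix.single j i (-(t : k)⁻¹) * Matrix.single i j (t : k) +
            Matrix.single i j (t : k) * Matrix.single i j (t : k) +
            (Matrix.single i j (t : k) * Matrix.single j i (-(t : k)⁻¹)) * Matrix.single i j (t : k) +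
            Matrix.single i j (t : k) := by noncomm_ring
      _ = _ := by rw [hAA, hAB, hBA, hABA]; abel
  rw [h1]
  ext a b
  rw [mono_coe]
  simp only [Matrix.add_apply, Matrix.one_apply, Matrix.single_apply]
  by_cases hbi : b = i
  · subst hbi
    rw [Equiv.swap_apply_left, if_neg hij, if_pos rfl]
    by_cases haj : a = j
    · subst haj
      simp [hij, hij.symm]
    · by_cases hab : a = b
      · subst hab
        simp [hij, hij.symm]
      · simp [hab, haj, Ne.symm hab, Ne.symm haj, hij.symm]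
  · by_cases hbj : b = j
    · subst hbj
      rw [Equiv.swap_apply_right, if_pos rfl]
      by_cases hai : a = i
      · subst hai
        simp [hij, hij.symm]
      · by_cases hab : a = b
        · subst hab
          simp [hij, hij.symm]
        · simp [hab, hai, Ne.symm hab, Ne.symm hai, hij]
    · rw [Equiv.swap_apply_of_ne_of_ne hbi hbj, if_neg hbj, if_neg hbi]
      by_cases hab : a = b
      · subst hab
        simp [Ne.symm hbi, Ne.symm hbj]
      · simp [hab, Ne.symm hbi, Ne.symm hbj]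

/-- `w_ij(t) w_ij(1)⁻¹` is diagonal -/
theorem toGL_hij {i j : Fin n} (hij : i ≠ j) (t : kˣ) : toGL (wij (k := k) hij t * (wij hij 1)⁻¹) =
    mono 1 (Pi.mulSingle i t * Pi.mulSingle j t⁻¹) := by
  rw [map_mul, map_inv, toGL_wij, toGL_wij, mono_inv, mono_mul, mul_inv_cancel]
  congr 1
  funext m
  rw [Equiv.swap_inv, Pi.mul_apply]
  by_cases hmi : m = i
  · subst hmi
    rw [Equiv.swap_apply_left, if_pos rfl, if_pos rfl, inv_one, mul_one, Pi.mulSingle_eq_same,
      Pi.mulSingle_eq_of_ne hij, mul_one]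
  · by_cases hmj : m = j
    · subst hmj
      rw [Equiv.swap_apply_right, if_neg hij, if_pos rfl, if_neg hij, if_pos rfl, Pi.mulSingle_eq_of_ne hmi,
        Pi.mulSingle_eq_same, one_mul, inv_one]
      simp
    · rw [Equiv.swap_apply_of_ne_of_ne hmi hmj, if_neg hmj, if_neg hmi, if_neg hmj, if_neg hmi,
        Pi.mulSingle_eq_of_ne hmi, Pi.mulSingle_eq_of_ne hmj]
      simp

/-- the diagonal matrices of determinant 1 are generated by the `h_ij(t)` -/
theorem diag_induction {K : Subgroup (Matrix.SpecialLinearGroup (Fin n) k)}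
    (hK : ∀ (i j : Fin n) (hij : i ≠ j) (t : kˣ), wij hij t * (wij hij 1)⁻¹ ∈ K)
    {m : Matrix.SpecialLinearGroup (Fin n) k} {d : Fin n → kˣ} (hm : toGL m = mono 1 d) : m ∈ K := by
  have hd : ∏ i, d i = 1 := by
    have h1 : (mono 1 d : GL (Fin n) k).1.det = 1 := by rw [← hm]; exact m.2
    have h2 : (mono 1 d : GL (Fin n) k).1 = Matrix.diagonal fun i => ((d i : kˣ) : k) := by
      ext i j
      rw [mono_coe, Matrix.diagonal_apply, Equiv.Perm.one_apply]
      by_cases h : i = j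
      · rw [if_pos h, if_pos h, h]
      · rw [if_neg h, if_neg h]
    rw [h2, Matrix.det_diagonal] at h1
    apply Units.ext
    rw [Units.coe_prod, h1, Units.val_one]
  -- the subgroup of the diagonals
  let K' : Subgroup (Fin n → kˣ) :=
    { carrier := {d | ∃ m ∈ K, toGL m = mono 1 d}
      one_mem' := ⟨1, one_mem _, by rw [map_one, ← mono_one]; rfl⟩
      mul_mem' := by
        rintro a b ⟨m, hm, h1⟩ ⟨m', hm', h2⟩
        exact ⟨m * m', mul_mem hm hm', by rw [map_mul, h1, h2, mono_mul, mul_one]; rfl⟩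
      inv_mem' := by
        rintro a ⟨m, hm, h1⟩
        exact ⟨m⁻¹, inv_mem hm, by rw [map_inv, h1, mono_inv, inv_one]; rfl⟩ }
  have h1 : ∀ i : Fin n, ∀ t : kˣ, (Pi.mulSingle i t * Pi.mulSingle 0 t⁻¹ : Fin n → kˣ) ∈ K' := by
    intro i t
    by_cases hi : i = 0
    · rw [hi, ← Pi.mulSingle_mul, mul_inv_cancel, Pi.mulSingle_one]
      exact one_mem _
    · exact ⟨_, hK i 0 hi t, toGL_hij hi t⟩
  have h2 : d = ∏ i, (Pi.mulSingle i (d i) * Pi.mulSingle 0 (d i)⁻¹ : Fin n → kˣ) := by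
    rw [Finset.prod_mul_distrib, Finset.univ_prod_mulSingle]
    have h3 : ∏ i, (Pi.mulSingle 0 (d i)⁻¹ : Fin n → kˣ) = 1 := by
      have h4 := map_prod (MonoidHom.mulSingle (fun _ : Fin n => kˣ) 0) (fun i => (d i)⁻¹) Finset.univ
      rw [Finset.prod_inv_distrib, hd, inv_one, map_one] at h4
      exact h4.symm
    rw [h3, mul_one]
  have h3 : d ∈ K' := by
    rw [h2]
    exact prod_mem fun i _ => h1 i _
  obtain ⟨m', hm', h4⟩ := h3
  have : m = m' := toGL_inj' (hm.trans h4.symm)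
  rwa [this]

end Wij

/-! ### homomorphisms `SL_n(k) → D.group k` of frames -/

section Ah

variable {k : Type u} [Field k]

/-- `ψ` maps `E_ij(t)` to `x_{ev i - ev j}(± t)` -/
structure Ah {n : ℕ} (ψ : Matrix.SpecialLinearGroup (Fin n) k →* ↥(D.group k)) (ev : Fin n → Fin l → ℤ)
    (s : Fin n → Fin n → k) : Prop where
  tr : ∀ (i j : Fin n) (hij : i ≠ j) (t : k), ψ (transvection hij t) = xc hp (ev i - ev j) (s i j * t)
  rt : ∀ i j, i ≠ j → IsRoot M.toCoxeterSystem hp.isCartan (ev i - ev j)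
  sq : ∀ i j, i ≠ j → s i j * s i j = 1
  symm : ∀ i j, i ≠ j → s j i = s i j

variable {hp} {n : ℕ} {ψ : Matrix.SpecialLinearGroup (Fin n) k →* ↥(D.group k)} {ev : Fin n → Fin l → ℤ}
    {s : Fin n → Fin n → k}

theorem Ah.ne_zero (A : Ah hp ψ ev s) {i j : Fin n} (hij : i ≠ j) : s i j ≠ 0 := by
  intro h0
  have := A.sq i j hij
  rw [h0, mul_zero] at this
  exact zero_ne_one this

theorem Ah.wij (A : Ah hp ψ ev s) {i j : Fin n} (hij : i ≠ j) (t : kˣ) :
    ψ (wij hij t) = na hp (ev i - ev j) (s i j * t) := by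
  unfold X4.wij na
  rw [map_mul, map_mul, A.tr, A.tr, A.symm i j hij, neg_sub]
  congr 3
  have h1 : (s i j)⁻¹ = s i j := inv_eq_of_mul_eq_one_left (A.sq i j hij)
  rw [mul_inv, h1, mul_neg]

theorem Ah.inj (A : Ah hp ψ ev s) {i j : Fin n} (hij : i ≠ j) : Function.Injective fun t : k => ψ (transvection hij t) := by
  intro t u htu
  beta_reduce at htu
  rw [A.tr, A.tr] at htu
  obtain ⟨a, ha, e⟩ := (isRoot_iff hp M.toCoxeterSystem _).1 (A.rt i j hij)
  rw [← e] at htu
  exact mul_left_cancel₀ (A.ne_zero hij) (xc_inj hp ha htu)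

end Ah

section AhK

variable {hp} {r : ℕ} [Fact r.Prime] {n : ℕ} {ψ : Matrix.SpecialLinearGroup (Fin n) (KK r) →* ↥(D.group (KK r))}
  {ev : Fin n → Fin l → ℤ} {s : Fin n → Fin n → KK r}

theorem Ah.diag [NeZero n] (A : Ah hp ψ ev s) {m : Matrix.SpecialLinearGroup (Fin n) (KK r)} {d : Fin n → (KK r)ˣ}
    (hm : toGL m = mono 1 d) : ψ m ∈ TT D (KK r) := by
  refine diag_induction (K := (TT D (KK r)).comap ψ) (fun i j hij t => ?_) hm
  rw [Subgroup.mem_comap, map_mul, map_inv, A.wij, A.wij]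
  exact na_mul_inv_mem hp r (A.rt i j hij) (mul_ne_zero (A.ne_zero hij) t.ne_zero)
    (mul_ne_zero (A.ne_zero hij) (Units.ne_zero _))

theorem Ah.nr_wij (A : Ah hp ψ ev s) {i j : Fin n} (hij : i ≠ j) {w : M.Group} (hw : IsRfl hp w (ev i - ev j))
    (t : (KK r)ˣ) : NR hp r w (ψ (X4.wij hij t)) := by
  rw [A.wij]
  exact nr_na hp r (A.rt i j hij) hw (mul_ne_zero (A.ne_zero hij) t.ne_zero)

variable {p : ℕ} [hpp : Fact p.Prime] [NeZero p] {ψ : Matrix.SpecialLinearGroup (Fin p) (KK r) →* ↥(D.group (KK r))}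
  {ev : Fin p → Fin l → ℤ} {s : Fin p → Fin p → KK r}

theorem pow_cyc {m₀ : Matrix.SpecialLinearGroup (Fin p) (KK r)} {d₀ : Fin p → (KK r)ˣ}
    (hm₀ : toGL m₀ = mono (Equiv.addRight (1 : Fin p)) d₀) (b : ℕ) :
    ∃ d, toGL (m₀ ^ b) = mono (Equiv.addRight (Fin.ofNat p b)) d := by
  induction b with
  | zero =>
    refine ⟨fun _ => 1, ?_⟩
    have : Fin.ofNat p 0 = (0 : Fin p) := by apply Fin.ext; rw [Fin.val_ofNat, Nat.zero_mod, Fin.val_zero]
    rw [pow_zero, map_one, this, addRight_zero, mono_one]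
  | succ b ih =>
    obtain ⟨d, hd⟩ := ih
    refine ⟨_, by
      rw [pow_succ, map_mul, hd, hm₀, mono_mul]
      have h3 : (Fin.ofNat p (b + 1) : Fin p) = Fin.ofNat p b + 1 := by
        apply Fin.ext
        rw [val_succ', Fin.val_ofNat, Fin.val_ofNat, Nat.mod_add_mod]
      have h1 : Equiv.addRight (Fin.ofNat p b) * Equiv.addRight (1 : Fin p) = Equiv.addRight (Fin.ofNat p (b + 1)) := by
        apply Equiv.ext
        intro i
        show i + 1 + Fin.ofNat p b = i + Fin.ofNat p (b + 1)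
        rw [h3, add_assoc, add_comm (1 : Fin p)]
      rw [h1]⟩

theorem Ah.cyc (A : Ah hp ψ ev s) {m₀ : Matrix.SpecialLinearGroup (Fin p) (KK r)} {d₀ : Fin p → (KK r)ˣ}
    (hm₀ : toGL m₀ = mono (Equiv.addRight (1 : Fin p)) d₀) {ρ : M.Group} (hρ : NR hp r ρ (ψ m₀))
    {m : Matrix.SpecialLinearGroup (Fin p) (KK r)} {b : Fin p} {d : Fin p → (KK r)ˣ}
    (hm : toGL m = mono (Equiv.addRight b) d) : NR hp r (ρ ^ (b : ℕ)) (ψ m) := by
  obtain ⟨d', hd'⟩ := pow_cyc hm₀ b
  have hb : Fin.ofNat p (b : ℕ) = b := Fin.ext (by rw [Fin.val_ofNat]; exact Nat.mod_eq_of_lt b.2)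
  rw [hb] at hd'
  have h1 : toGL (m * (m₀ ^ (b : ℕ))⁻¹) = mono 1 fun j => d ((Equiv.addRight b)⁻¹ j) * (d' ((Equiv.addRight b)⁻¹ j))⁻¹ := by
    rw [map_mul, map_inv, hm, hd', mono_inv, mono_mul, mul_inv_cancel]
  have h2 := nr_mul (nr_of_T (hp := hp) (A.diag h1)) (nr_pow hρ (b : ℕ))
  rw [one_mul, ← map_pow, ← map_mul, inv_mul_cancel_right] at h2
  exact h2

end AhK

/-! ### frames -/

section Frame

variable {hp}

include hp in
theorem sgn_symm {n : ℕ} {ev : Fin (n + 1) → Fin l → ℤ} (h : AFr D l ev) {i j : Fin (n + 1)} (hij : i ≠ j) :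
    sgn D l ev j i = sgn D l ev i j := by
  by_cases hi : i = 0
  · rw [hi, sgn_zero_left, sgn_zero_right]
  by_cases hj : j = 0
  · rw [hj, sgn_zero_left, sgn_zero_right]
  rw [sgn_of_ne hj hi, sgn_of_ne hi hj]
  have hP := h.pr 0 i j (Ne.symm hi) hij (Ne.symm hj)
  have h1 := NN_cyc hp hP
  have h2 := NN_cyc hp (hP.cyc hp)
  have h3 := NN_neg hp ((hP.cyc hp).cyc hp)
  rw [h2, h1] at h3
  have e1 : -(-(ev 0 - ev i + (ev i - ev j))) = ev 0 - ev j := by module
  have e2 : -(ev 0 - ev i + (ev i - ev j)) + -(ev i - ev j + -(ev 0 - ev i + (ev i - ev j))) = ev j - ev i := by module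
  rw [e1, e2] at h3
  exact h3

variable {r : ℕ} [Fact r.Prime]

theorem exists_ah {n : ℕ} (hn : 2 ≤ n) {ev : Fin (n + 1) → Fin l → ℤ} (h : AFr D l ev) :
    ∃ ψ : Matrix.SpecialLinearGroup (Fin (n + 1)) (KK r) →* ↥(D.group (KK r)),
      Ah hp ψ ev (fun i j => (sgn D l ev i j : KK r)) := by
  obtain ⟨ψ, hψ, -⟩ := exists_hom_afr (k := KK r) hp h hn (locFin r)
  refine ⟨ψ, fun i j hij t => hψ i j hij t, fun i j hij => (rt_iff hp _).1 (h.rt i j hij), fun i j hij => ?_,
    fun i j hij => ?_⟩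
  · rw [← Int.cast_mul, sgn_sq hp h hij, Int.cast_one]
  · rw [sgn_symm (hp := hp) h hij]

theorem exists_ah_sub {p : ℕ} (hp3 : 3 ≤ p) {ev : Fin (p + 1) → Fin l → ℤ} (h : AFr D l ev) :
    ∃ ψ : Matrix.SpecialLinearGroup (Fin p) (KK r) →* ↥(D.group (KK r)),
      Ah hp ψ (fun i => ev i.castSucc) (fun i j => (sgn D l ev i.castSucc j.castSucc : KK r)) := by
  obtain ⟨m, rfl⟩ : ∃ m, p = m + 1 := ⟨p - 1, by omega⟩
  have hS := steinRel (k := KK r) hp h
  have hcs := Fin.castSucc_injective (m + 1)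
  have hS' : Cfsg.Agent.AGraded.SteinRel (fun (i j : Fin (m + 1)) (t : KK r) => xf hp ev i.castSucc j.castSucc t) :=
    ⟨fun i j hij a b => hS.add _ _ (hcs.ne hij) a b,
      fun i j k l hij hkl hjk hil a b => hS.comm _ _ _ _ (hcs.ne hij) (hcs.ne hkl) (hcs.ne hjk) (hcs.ne hil) a b,
      fun i j k hij hjk hik a b => hS.br _ _ _ (hcs.ne hij) (hcs.ne hjk) (hcs.ne hik) a b⟩
  obtain ⟨ψ, hψ, -⟩ := exists_hom_loc (locFin r) hS' (by omega)
  refine ⟨ψ, fun i j hij t => hψ i j hij t, fun i j hij => (rt_iff hp _).1 (h.rt _ _ (hcs.ne hij)), fun i j hij => ?_,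
    fun i j hij => ?_⟩
  · rw [← Int.cast_mul, sgn_sq hp h (hcs.ne hij), Int.cast_one]
  · rw [sgn_symm (hp := hp) h (hcs.ne hij)]

/-- the action of a frame automorphism -/
theorem Ah.act {n : ℕ} {ψ : Matrix.SpecialLinearGroup (Fin n) (KK r) →* ↥(D.group (KK r))} {ev : Fin n → Fin l → ℤ}
    {s : Fin n → Fin n → KK r} (A : Ah hp ψ ev s) {e : ℕ} {σ : MulAut ↥(D.group (KK r))}
    {g : (Fin l → ℤ) ≃+ (Fin l → ℤ)} (hσ : IsFrob r e σ)
    (F : Fr M.toCoxeterSystem hp.isCartan (TT D (KK r)) (XX D l (KK r)) σ g) {i j i' j' : Fin n} (hij : i ≠ j)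
    (hij' : i' ≠ j') (hg : g (ev i - ev j) = ev i' - ev j') : ∃ c : KK r, c ≠ 0 ∧ ∀ t,
      σ (ψ (transvection hij t)) = ψ (transvection hij' (c * t ^ r ^ e)) := by
  obtain ⟨c, hc, h⟩ := HX.fr_xc hp M.toCoxeterSystem hσ F (A.rt i j hij)
  refine ⟨s i' j' * (c * s i j ^ r ^ e), mul_ne_zero (A.ne_zero hij') (mul_ne_zero hc (pow_ne_zero _ (A.ne_zero hij))),
    fun t => ?_⟩
  rw [A.tr, A.tr, h, hg]
  congr 1
  have h1 := A.sq i' j' hij'
  rw [mul_pow]
  calc c * (s i j ^ r ^ e * t ^ r ^ e) = 1 * (c * s i j ^ r ^ e * t ^ r ^ e) := by ring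
    _ = _ := by rw [← h1]; ring

end Frame

/-! ### the move -/

section Imp

variable {r : ℕ} [Fact r.Prime] {p : ℕ} [hpp : Fact p.Prime] [NeZero p]

/-- the cycle of `Fin (p + 1)` fixing the last element -/
def cycLast (p : ℕ) [NeZero p] : Equiv.Perm (Fin (p + 1)) :=
  finSuccEquivLast.trans ((Equiv.optionCongr (Equiv.addRight (1 : Fin p))).trans finSuccEquivLast.symm)

theorem cycLast_castSucc (i : Fin p) : cycLast p i.castSucc = (i + 1).castSucc := by
  simp [cycLast]

theorem cycLast_last : cycLast p (Fin.last p) = Fin.last p := by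
  simp [cycLast]

theorem exists_coef {n : ℕ} {k : Type*} [Field k] {P : ∀ i j : Fin n, i ≠ j → k → k → Prop}
    (h : ∀ i j (hij : i ≠ j), ∃ c : k, c ≠ 0 ∧ ∀ t, P i j hij c t) :
    ∃ s : Fin n → Fin n → k, (∀ i j, i ≠ j → s i j ≠ 0) ∧ ∀ i j (hij : i ≠ j) t, P i j hij (s i j) t := by
  classical
  choose c hc0 hc using h
  refine ⟨fun i j => if hij : i ≠ j then c i j hij else 1, fun i j hij => ?_, fun i j hij t => ?_⟩
  · beta_reduce; rw [dif_pos hij]; exact hc0 i j hij
  · beta_reduce; rw [dif_pos hij]; exact hc i j hij t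

theorem exists_omega (r : ℕ) [Fact r.Prime] (hpr : p ≠ r) : ∃ ω : (KK r)ˣ, orderOf ω = p := by
  have h1 : ((p : ℕ) : KK r) ≠ 0 := by
    rw [Ne, CharP.cast_eq_zero_iff (KK r) r]
    intro h
    exact hpr ((Nat.prime_dvd_prime_iff_eq (Fact.out : r.Prime) hpp.1).1 h).symm
  have : NeZero ((p : ℕ) : KK r) := ⟨h1⟩
  obtain ⟨ω, hω⟩ := HasEnoughRootsOfUnity.exists_primitiveRoot (KK r) p
  have hu : IsUnit ω := hω.isUnit hpp.1.ne_zero
  refine ⟨hu.unit, ?_⟩
  rw [← orderOf_units, IsUnit.unit_spec]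
  exact hω.eq_orderOf.symm

variable {hp} {e : ℕ} {τ : MulAut ↥(D.group (KK r))}
  {γ : (Fin l → ℤ) ≃+ (Fin l → ℤ)} {E H : Subgroup ↥(D.group (KK r))}

/-- **The move.** -/
theorem imp (h2 : p ≠ 2) (hpr : p ≠ r) (S : Sit hp r p e τ γ E H) {ε : ℤ} (hε : Eps p (r ^ e) ε)
    {f : ↥(D.group (KK r))} (hf : f ∈ E) {w : M.Group} (hw : NR hp r w f) {ev : Fin (p + 1) → Fin l → ℤ}
    (hev : AFr D l ev)
    (hwe : ∀ i : Fin p, rep M.toCoxeterSystem hp.isCartan w (ev i.castSucc) = ev (i + 1).castSucc)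
    (hl : ev (Fin.last p) = 0) (hγ : ∀ i, γ (ev i) = ε • ev i)
    (hst : ∀ v ∈ VE hp r E, ∃ a : Fin p, ∀ i : Fin p,
      rep M.toCoxeterSystem hp.isCartan v (ev i.castSucc - ev (i + 1).castSucc) =
        ev (i + a).castSucc - ev (i + a + 1).castSucc)
    {ρ : M.Group} {m₀ : Matrix.SpecialLinearGroup (Fin p) (KK r)} {d₀ : Fin p → (KK r)ˣ}
    (hm₀ : toGL m₀ = mono (Equiv.addRight (1 : Fin p)) d₀)
    (hρ : ∀ ψ s, Ah hp ψ (fun i : Fin p => ev i.castSucc) s → NR hp r ρ (ψ m₀)) :
    ∃ y : ↥(D.group (KK r)), y⁻¹ * τ y ∈ TT D (KK r) ∧ (∀ x ∈ E, ∃ v, NR hp r v (y⁻¹ * x * y)) ∧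
      (∀ x ∈ E, x ∈ TT D (KK r) → y⁻¹ * x * y ∈ TT D (KK r)) ∧ NR hp r (ρ⁻¹ * w) (y⁻¹ * f * y) := by
  have hn : 3 ≤ p := by have := hpp.1.two_le; omega
  have hcs := Fin.castSucc_injective p
  obtain ⟨ω, hω⟩ := exists_omega (p := p) r hpr
  obtain ⟨ψ', A'⟩ := exists_ah (hp := hp) (r := r) (by omega : 2 ≤ p) hev
  obtain ⟨ψ, A⟩ := exists_ah_sub (hp := hp) (r := r) hn hev
  have hψ : ∀ (i j : Fin p) (hij : i ≠ j) (t : KK r),
      ψ (transvection hij t) = ψ' (transvection (hcs.ne hij) t) := fun i j hij t => by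
    rw [A.tr, A'.tr]
  have hNRρ := hρ ψ _ A
  -- the action of `f`
  have hwev : ∀ i j : Fin (p + 1), rep M.toCoxeterSystem hp.isCartan w (ev i - ev j) =
      ev (cycLast p i) - ev (cycLast p j) := by
    have h3 : ∀ i : Fin (p + 1), rep M.toCoxeterSystem hp.isCartan w (ev i) = ev (cycLast p i) := by
      intro i
      induction i using Fin.lastCases with
      | last => rw [cycLast_last, hl, map_zero]
      | cast i => rw [cycLast_castSucc, hwe]
    intro i j
    rw [map_sub, h3, h3]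
  obtain ⟨c, hc0, hc⟩ := exists_coef (P := fun (i j : Fin (p + 1)) hij c t =>
      f * ψ' (transvection hij t) * f⁻¹ = ψ' (transvection ((cycLast p).injective.ne hij) (c * t)))
    (fun i j hij => by
      obtain ⟨c, hc, h3⟩ := A'.act (IsFrob.conj (p := r) f) (nr_frame hw) hij ((cycLast p).injective.ne hij) (hwev i j)
      refine ⟨c, hc, fun t => ?_⟩
      have h4 := h3 t
      rw [pow_zero, pow_one] at h4
      exact h4)
  -- the action of `τ`
  have hτ : ∃ s : Fin (p + 1) → Fin (p + 1) → KK r, (∀ i j, i ≠ j → s i j ≠ 0) ∧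
      ((ω ^ r ^ e = ω ∧ ∀ (i j : Fin (p + 1)) (hij : i ≠ j) (t : KK r),
        τ.toMonoidHom (ψ' (transvection hij t)) = ψ' (transvection hij (s i j * t ^ r ^ e))) ∨
      (ω ^ (r ^ e + 1) = 1 ∧ ∀ (i j : Fin (p + 1)) (hij : i ≠ j) (t : KK r),
        τ.toMonoidHom (ψ' (transvection hij t)) = ψ' (transvection hij.symm (s i j * t ^ r ^ e)))) := by
    obtain ⟨hε1, hε2⟩ := hε
    rcases hε1 with rfl | rfl
    · obtain ⟨s, hs0, hs⟩ := exists_coef (P := fun (i j : Fin (p + 1)) hij c t =>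
        τ.toMonoidHom (ψ' (transvection hij t)) = ψ' (transvection hij (c * t ^ r ^ e)))
        (fun i j hij => A'.act S.frob S.fr hij hij (by rw [map_sub, hγ, hγ, one_smul, one_smul]))
      refine ⟨s, hs0, Or.inl ⟨?_, hs⟩⟩
      have h3 : r ^ e ≡ 1 [MOD p] := by
        rw [← Int.natCast_modEq_iff]
        exact (Int.modEq_iff_dvd.2 (by rw [Nat.cast_one]; exact hε2)).symm
      have h4 : ω ^ r ^ e = ω ^ 1 := by rw [pow_eq_pow_iff_modEq, hω]; exact h3
      rw [h4, pow_one]
    · obtain ⟨s, hs0, hs⟩ := exists_coef (P := fun (i j : Fin (p + 1)) hij c t =>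
        τ.toMonoidHom (ψ' (transvection hij t)) = ψ' (transvection hij.symm (c * t ^ r ^ e)))
        (fun i j hij => A'.act S.frob S.fr hij hij.symm (by rw [map_sub, hγ, hγ]; module))
      refine ⟨s, hs0, Or.inr ⟨?_, hs⟩⟩
      rw [sub_neg_eq_add] at hε2
      rw [← orderOf_dvd_iff_pow_eq_one, hω]
      exact_mod_cast hε2
  obtain ⟨s, hs0, hτ⟩ := hτ
  obtain ⟨g, P, y, T₀, hP, hfP, hT₀, ⟨d, hd⟩, hy⟩ := imp_alg h2 hω (fun i j hij => A'.inj hij) hψ (S.el.2 f hf)
    (π' := cycLast p) cycLast_castSucc cycLast_last hc0 hc (τ := τ.toMonoidHom) (S.fix f hf) hs0 hτ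
  refine ⟨ψ y, ?_, ?_, ?_, ?_⟩
  · have h3 : (ψ y)⁻¹ * τ (ψ y) = ψ (y⁻¹ * T₀ y) := by
      rw [map_mul, map_inv]
      congr 1
      exact hT₀ y
    rw [h3]
    exact A.diag hd
  · -- all elements of `E`
    intro x hx
    obtain ⟨v, hv⟩ := S.nrm x hx
    obtain ⟨a, ha⟩ := hst v ⟨x, hx, hv⟩
    have ha' : ∀ i j : Fin p, rep M.toCoxeterSystem hp.isCartan v (ev i.castSucc - ev j.castSucc) =
        ev (i + a).castSucc - ev (j + a).castSucc := by
      intro i
      have h3 : ∀ n : ℕ, rep M.toCoxeterSystem hp.isCartan v (ev i.castSucc - ev (i + Fin.ofNat p n).castSucc) =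
          ev (i + a).castSucc - ev (i + Fin.ofNat p n + a).castSucc := by
        intro n
        induction n with
        | zero =>
          have : Fin.ofNat p 0 = (0 : Fin p) := by apply Fin.ext; rw [Fin.val_ofNat, Nat.zero_mod, Fin.val_zero]
          rw [this, add_zero, sub_self, sub_self, map_zero]
        | succ n ih =>
          have h4 : (i + Fin.ofNat p (n + 1) : Fin p) = i + Fin.ofNat p n + 1 := by
            have h5 : (Fin.ofNat p (n + 1) : Fin p) = Fin.ofNat p n + 1 := by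
              apply Fin.ext
              rw [val_succ', Fin.val_ofNat, Fin.val_ofNat, Nat.mod_add_mod]
            rw [h5, add_assoc]
          have h6 := ha (i + Fin.ofNat p n)
          have h7 : ev i.castSucc - ev (i + Fin.ofNat p n + 1).castSucc =
              (ev i.castSucc - ev (i + Fin.ofNat p n).castSucc) +
                (ev (i + Fin.ofNat p n).castSucc - ev (i + Fin.ofNat p n + 1).castSucc) := by module
          rw [h4, h7, map_add, ih, h6, add_right_comm _ a 1]
          module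
      intro j
      have h4 := h3 ((j - i : Fin p) : ℕ)
      have h5 : Fin.ofNat p ((j - i : Fin p) : ℕ) = j - i :=
        Fin.ext (by rw [Fin.val_ofNat]; exact Nat.mod_eq_of_lt (j - i).2)
      rw [h5, add_sub_cancel] at h4
      exact h4
    obtain ⟨c', hc0', hc'⟩ := exists_coef (P := fun (i j : Fin p) hij c t =>
        x * ψ (transvection hij t) * x⁻¹ = ψ (transvection ((Equiv.addRight a).injective.ne hij) (c * t)))
      (fun i j hij => by
        obtain ⟨c, hc, h3⟩ := A.act (IsFrob.conj (p := r) x) (nr_frame hv) hij ((Equiv.addRight a).injective.ne hij)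
          (ha' i j)
        refine ⟨c, hc, fun t => ?_⟩
        have h4 := h3 t
        rw [pow_zero, pow_one] at h4
        exact h4)
    obtain ⟨m, b, d', hm, hmx⟩ := imp_other r h2 hω (fun i j hij => A.inj hij) hfP hy (comm_E S hx hf) hc0' hc'
    have h3 : (ψ y)⁻¹ * x * ψ y = ψ m * x := by
      rw [map_mul] at hmx
      calc (ψ y)⁻¹ * x * ψ y = (ψ y)⁻¹ * (x * ψ y * x⁻¹) * x := by group
        _ = _ := by rw [hmx]; group
    rw [h3]
    exact ⟨_, nr_mul (A.cyc hm₀ hNRρ hm) hv⟩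
  · -- the elements of the torus
    intro x hx hxT
    have h3 : ∀ g, x * ψ g = ψ g * x := by
      obtain ⟨φ, hφ0, hφ, hφc⟩ := chAddL hp M.toCoxeterSystem (locFin r) r x hxT
      have hroot : ∀ i : Fin p, IsRoot M.toCoxeterSystem hp.isCartan (ev i.castSucc) := by
        intro i
        have h4 := hev.rt i.castSucc (Fin.last p) (Fin.castSucc_lt_last i).ne
        rw [hl, sub_zero] at h4
        exact (rt_iff hp _).1 h4
      have h4 : ∀ i : Fin p, φ (ev (i + 1).castSucc) = φ (ev i.castSucc) := by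
        intro i
        have h5 := fr_ch hp M.toCoxeterSystem (locFin r) (IsFrob.conj (p := r) f) (nr_frame hw) (hroot i) hxT
        have h6 : MulAut.conj f x = x := by
          rw [MulAut.conj_apply, comm_E S hf hx, mul_inv_cancel_right]
        rw [h6, pow_zero, pow_one, repAut_apply, hwe] at h5
        rw [← hφc _ (hroot _), ← hφc _ (hroot _), h5]
      have h5 : ∀ i : Fin p, φ (ev i.castSucc) = φ (ev (0 : Fin p).castSucc) := by
        have h6 : ∀ n : ℕ, φ (ev (Fin.ofNat p n).castSucc) = φ (ev (0 : Fin p).castSucc) := by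
          intro n
          induction n with
          | zero =>
            have : Fin.ofNat p 0 = (0 : Fin p) := by apply Fin.ext; rw [Fin.val_ofNat, Nat.zero_mod, Fin.val_zero]
            rw [this]
          | succ n ih =>
            have h5 : (Fin.ofNat p (n + 1) : Fin p) = Fin.ofNat p n + 1 := by
              apply Fin.ext
              rw [val_succ', Fin.val_ofNat, Fin.val_ofNat, Nat.mod_add_mod]
            rw [h5, h4, ih]
        intro i
        have h7 := h6 (i : ℕ)
        have h8 : Fin.ofNat p (i : ℕ) = i := Fin.ext (by rw [Fin.val_ofNat]; exact Nat.mod_eq_of_lt i.2)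
        rwa [h8] at h7
      have h6 : ∀ i j : Fin p, i ≠ j → ch hp (ev i.castSucc - ev j.castSucc) x = 1 := by
        intro i j hij
        rw [hφc _ (A.rt i j hij)]
        have h7 := hφ (ev i.castSucc - ev j.castSucc) (ev j.castSucc)
        rw [sub_add_cancel, h5 i, h5 j] at h7
        have h8 : φ (ev (0 : Fin p).castSucc) ≠ 0 := by
          rw [← hφc _ (hroot _)]
          exact ch_ne_zero hp M.toCoxeterSystem (locFin r) r (hroot _) hxT
        exact mul_right_cancel₀ h8 (by rw [one_mul]; exact h7.symm)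
      have h7 : (MulAut.conj x).toMonoidHom.comp ψ = ψ := by
        refine hom_ext_transvection hn fun i j hij t => ?_
        show x * ψ (transvection hij t) * x⁻¹ = _
        rw [A.tr, ch_comm hp M.toCoxeterSystem (locFin r) r (A.rt i j hij) hxT, h6 i j hij, one_mul]
      intro g
      have h8 := DFunLike.congr_fun h7 g
      have h9 : x * ψ g * x⁻¹ = ψ g := h8
      rw [mul_inv_eq_iff_eq_mul] at h9
      exact h9
    rw [mul_assoc, h3, inv_mul_cancel_left]
    exact hxT
  · have h3 : (ψ y)⁻¹ * f * ψ y = ψ (y⁻¹ * P * y) * (ψ P)⁻¹ * f := by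
      have h4 := hfP y
      calc (ψ y)⁻¹ * f * ψ y = (ψ y)⁻¹ * (f * ψ y * f⁻¹) * f := by group
        _ = _ := by rw [h4, ← map_inv, ← map_inv, ← map_mul, ← map_mul]; group
    rw [h3, mul_assoc]
    have h4 : toGL (y⁻¹ * P * y) = mono 1 (fun i => ω ^ (i : ℕ)) := by
      rw [map_mul, map_mul, map_inv, hy]; rfl
    have h5 := nr_of_T (hp := hp) (A.diag h4)
    have h6 : NR hp r ρ (ψ P) := by
      have h7 : ((1 : Fin p) : ℕ) = 1 := by rw [Fin.val_one', Nat.mod_eq_of_lt (by omega)]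
      have h8 := A.cyc hm₀ hNRρ hP
      rwa [h7, pow_one] at h8
    have h7 := nr_mul h5 (nr_mul (nr_inv h6) hw)
    rwa [one_mul] at h7

end Imp

/-! ### frames of long roots -/

section Long

variable (h : HiList D)

include h in
/-- pairs of long roots -/
theorem pr_of_long {a b : Fin l → ℤ} (ha : a ∈ LL M.toCoxeterSystem hp) (hb : b ∈ LL M.toCoxeterSystem hp)
    (h1 : cpr M.toCoxeterSystem hp.isCartan a b = -1) (h2 : cpr M.toCoxeterSystem hp.isCartan b a = -1) : Pr D l a b := by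
  have := finite_W hp M.toCoxeterSystem
  have hL := LL_long h hp M.toCoxeterSystem
  have har := LL_root h _ _ ha
  have hbr := LL_root h _ _ hb
  refine ⟨(rt_iff hp _).2 har, (rt_iff hp _).2 hbr, ?_, fun h3 => ?_, fun h3 => ?_, fun h3 => ?_⟩
  · have h3 := isRoot_refl M.toCoxeterSystem hp.isCartan har hbr
    rw [h1, neg_one_smul, sub_neg_eq_add] at h3
    exact (rt_iff hp _).2 h3
  · have h4 := hL.le a ha (-(b - a)) ((rt_iff hp _).1 h3).neg (fun e => hbr.ne_zero (by
      have : b = a + -(-(b - a)) := by module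
      rw [this, e, add_neg_cancel]))
    rw [cpr_neg M.toCoxeterSystem hp.isCartan _ har, sub_eq_add_neg, cpr_add M.toCoxeterSystem hp.isCartan _ _ har,
      cpr_neg M.toCoxeterSystem hp.isCartan _ har, cpr_self M.toCoxeterSystem hp.isCartan har, h2] at h4
    norm_num at h4
  · have h4 := hL.le a ha _ ((rt_iff hp _).1 h3) (fun e => by
      have e1 : b = -a := by
        have : b = (b + (2 : ℤ) • a) - (2 : ℤ) • a := by module
        rw [this, e]; module
      rw [e1, cpr_neg M.toCoxeterSystem hp.isCartan _ har, cpr_self M.toCoxeterSystem hp.isCartan har] at h2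
      norm_num at h2)
    rw [cpr_add M.toCoxeterSystem hp.isCartan _ _ har, cpr_smul M.toCoxeterSystem hp.isCartan _ _ har,
      cpr_self M.toCoxeterSystem hp.isCartan har, h2] at h4
    norm_num at h4
  · have h4 := hL.le b hb _ ((rt_iff hp _).1 h3) (fun e => by
      have e1 : a = -b := by
        have : a = (a + (2 : ℤ) • b) - (2 : ℤ) • b := by module
        rw [this, e]; module
      rw [e1, cpr_neg M.toCoxeterSystem hp.isCartan _ hbr, cpr_self M.toCoxeterSystem hp.isCartan hbr] at h1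
      norm_num at h1)
    rw [cpr_add M.toCoxeterSystem hp.isCartan _ _ hbr, cpr_smul M.toCoxeterSystem hp.isCartan _ _ hbr,
      cpr_self M.toCoxeterSystem hp.isCartan hbr, h1] at h4
    norm_num at h4

include h in
/-- frames of long roots from the Gram matrix -/
theorem afr_of_long [Fintype M.Group] {n : ℕ} {ev : Fin n → Fin l → ℤ} {F : ℤ}
    (hR : ∀ i j, i ≠ j → ev i - ev j ∈ LL M.toCoxeterSystem hp)
    (hB : ∀ i j p q, 2 * form M.toCoxeterSystem hp.isCartan (ev i - ev j) (ev p - ev q) = F * dl4 i j p q) :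
    AFr D l ev := by
  have hL := LL_long h hp M.toCoxeterSystem
  have hR' : ∀ i j, i ≠ j → IsRoot M.toCoxeterSystem hp.isCartan (ev i - ev j) := fun i j hij => LL_root h _ _ (hR i j hij)
  have hc : ∀ i j p q, p ≠ q → cpr M.toCoxeterSystem hp.isCartan (ev i - ev j) (ev p - ev q) = dl4 i j p q := by
    intro i j p q hpq
    apply cpr_eq_of_form M.toCoxeterSystem hp.isCartan (hR' p q hpq)
    rw [hB]
    have h1 := hB p q p q
    have h2 : dl4 p q p q = 2 := by unfold dl4; simp [hpq, Ne.symm hpq]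
    rw [h2] at h1
    have h3 : form M.toCoxeterSystem hp.isCartan (ev p - ev q) (ev p - ev q) = F := by linarith
    rw [h3, mul_comm]
  refine ⟨fun i j hij => (rt_iff hp _).2 (hR' i j hij), fun i j p hij hjp hip => ?_,
    fun i j p q hij hpq hjp hiq hip hjq => ⟨fun e => ?_, fun m n' hm hn hx => ?_⟩⟩
  · refine pr_of_long hp h (hR i j hij) (hR j p hjp) ?_ ?_
    · rw [hc i j j p hjp]; unfold dl4; simp [hij, hip, hjp]
    · rw [hc j p i j hij]; unfold dl4; simp [Ne.symm hij, Ne.symm hip, Ne.symm hjp]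
  · have h1 := hc p q i j hij
    rw [e, cpr_neg M.toCoxeterSystem hp.isCartan _ (hR' i j hij), cpr_self M.toCoxeterSystem hp.isCartan (hR' i j hij)] at h1
    unfold dl4 at h1
    simp [Ne.symm hip, Ne.symm hjp, Ne.symm hiq, Ne.symm hjq] at h1
  · have hx' := (rt_iff hp M.toCoxeterSystem).1 hx
    have h1 : cpr M.toCoxeterSystem hp.isCartan ((m : ℤ) • (ev i - ev j) + (n' : ℤ) • (ev p - ev q)) (ev i - ev j) =
        2 * m := by
      rw [cpr_add M.toCoxeterSystem hp.isCartan _ _ (hR' i j hij), cpr_smul M.toCoxeterSystem hp.isCartan _ _ (hR' i j hij),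
        cpr_smul M.toCoxeterSystem hp.isCartan _ _ (hR' i j hij), cpr_self M.toCoxeterSystem hp.isCartan (hR' i j hij),
        hc p q i j hij]
      unfold dl4
      simp [Ne.symm hip, Ne.symm hjp, Ne.symm hiq, Ne.symm hjq]
      ring
    have h2 : cpr M.toCoxeterSystem hp.isCartan ((m : ℤ) • (ev i - ev j) + (n' : ℤ) • (ev p - ev q)) (ev p - ev q) =
        2 * n' := by
      rw [cpr_add M.toCoxeterSystem hp.isCartan _ _ (hR' p q hpq), cpr_smul M.toCoxeterSystem hp.isCartan _ _ (hR' p q hpq),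
        cpr_smul M.toCoxeterSystem hp.isCartan _ _ (hR' p q hpq), cpr_self M.toCoxeterSystem hp.isCartan (hR' p q hpq),
        hc i j p q hpq]
      unfold dl4
      simp [hip, hjp, hiq, hjq]
      ring
    have e1 : (m : ℤ) • (ev i - ev j) + (n' : ℤ) • (ev p - ev q) = ev i - ev j := by
      by_contra hne
      have := hL.le _ (hR i j hij) _ hx' hne
      rw [h1] at this
      omega
    have e2 : (m : ℤ) • (ev i - ev j) + (n' : ℤ) • (ev p - ev q) = ev p - ev q := by
      by_contra hne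
      have := hL.le _ (hR p q hpq) _ hx' hne
      rw [h2] at this
      omega
    have h3 := hc i j p q hpq
    rw [← e1, h2] at h3
    unfold dl4 at h3
    simp [hip, hjp, hiq, hjq] at h3
    omega

include h in
/-- the frame of `p` long roots, `⟨b_i, b_j⟩ = 1` -/
theorem afr_of_simplex [Fintype M.Group] {p : ℕ} {ev : Fin (p + 1) → Fin l → ℤ} {F : ℤ}
    (hb : ∀ i : Fin p, ev i.castSucc ∈ LL M.toCoxeterSystem hp) (hl : ev (Fin.last p) = 0)
    (hB : ∀ i j : Fin p, 2 * form M.toCoxeterSystem hp.isCartan (ev i.castSucc) (ev j.castSucc) =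
      F * ((if i = j then 1 else 0) + 1)) : AFr D l ev := by
  have hg : ∀ i j : Fin (p + 1), 2 * form M.toCoxeterSystem hp.isCartan (ev i) (ev j) =
      F * ((if i = j then 1 else 0) + 1 - (if i = Fin.last p then 1 else 0) - (if j = Fin.last p then 1 else 0)) := by
    intro i j
    induction i using Fin.lastCases with
    | last =>
      have e1 : form M.toCoxeterSystem hp.isCartan (ev (Fin.last p)) (ev j) = 0 := by
        rw [hl, form_comm, form_zero_right]
      rw [e1]
      by_cases hj : j = Fin.last p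
      · rw [if_pos hj.symm, if_pos rfl, if_pos hj]; ring
      · rw [if_neg (Ne.symm hj), if_pos rfl, if_neg hj]; ring
    | cast i =>
      induction j using Fin.lastCases with
      | last =>
        have e1 : form M.toCoxeterSystem hp.isCartan (ev i.castSucc) (ev (Fin.last p)) = 0 := by
          rw [hl, form_zero_right]
        have hi := (Fin.castSucc_lt_last i).ne
        rw [e1, if_neg hi, if_pos rfl]; ring
      | cast j =>
        rw [hB, if_neg (Fin.castSucc_lt_last i).ne, if_neg (Fin.castSucc_lt_last j).ne]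
        by_cases hij : i = j
        · rw [if_pos hij, if_pos (by rw [hij])]; ring
        · rw [if_neg hij, if_neg (fun e => hij (Fin.castSucc_injective p e))]; ring
  refine afr_of_long (F := F) hp h ?_ ?_
  · intro i j hij
    induction i using Fin.lastCases with
    | last =>
      induction j using Fin.lastCases with
      | last => exact absurd rfl hij
      | cast j => rw [hl, zero_sub]; exact LL_neg h _ _ (hb j)
    | cast i =>
      induction j using Fin.lastCases with
      | last => rw [hl, sub_zero]; exact hb i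
      | cast j =>
        have hij' : i ≠ j := fun e => hij (by rw [e])
        have h1 : cpr M.toCoxeterSystem hp.isCartan (ev i.castSucc) (ev j.castSucc) = 1 := by
          apply cpr_eq_of_form M.toCoxeterSystem hp.isCartan (LL_root h _ _ (hb j))
          have h2 := hB i j
          have h3 := hB j j
          rw [if_neg hij'] at h2
          rw [if_pos rfl] at h3
          rw [h2]
          linarith
        have h2 := (LL_long h hp M.toCoxeterSystem).refl _ (hb i) _ (LL_root h _ _ (hb j))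
        rwa [h1, one_smul] at h2
  · intro i j a b
    simp only [form_sub_left, form_sub_right]
    have b1 := hg i a
    have b2 := hg i b
    have b3 := hg j a
    have b4 := hg j b
    unfold dl4
    linear_combination b1 - b2 - b3 + b4

end Long

/-! ### the move for long roots -/

section Simplex

variable {r : ℕ} [Fact r.Prime] {p : ℕ} [hpp : Fact p.Prime] [NeZero p] {hp} {e : ℕ} {τ : MulAut ↥(D.group (KK r))}
  {γ : (Fin l → ℤ) ≃+ (Fin l → ℤ)} {E H : Subgroup ↥(D.group (KK r))}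

/-- the frame `b, w b, w² b, …, 0` -/
noncomputable def evw (hp : IsType D l M) (p : ℕ) (w : M.Group) (b : Fin l → ℤ) (i : Fin (p + 1)) : Fin l → ℤ :=
  if (i : ℕ) < p then rep M.toCoxeterSystem hp.isCartan (w ^ (i : ℕ)) b else 0

theorem evw_cast {w : M.Group} {b : Fin l → ℤ} (i : Fin p) :
    evw hp p w b i.castSucc = rep M.toCoxeterSystem hp.isCartan (w ^ (i : ℕ)) b := by
  unfold evw
  rw [Fin.val_castSucc, if_pos i.2]

theorem evw_last {w : M.Group} {b : Fin l → ℤ} : evw hp p w b (Fin.last p) = 0 := by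
  unfold evw
  rw [Fin.val_last, if_neg (lt_irrefl _)]

theorem pow_mod_eq {G : Type*} [Group G] {w : G} (hw : w ^ p = 1) (n : ℕ) : w ^ (n % p) = w ^ n := by
  conv_rhs => rw [← Nat.div_add_mod n p, pow_add, pow_mul, hw, one_pow, one_mul]

/-- **The move**, `⟨w^j b, b⟩ = 1`. -/
theorem imp_simplex (h : HiList D) (h2 : p ≠ 2) (hpr : p ≠ r) (S : Sit hp r p e τ γ E H) {ε : ℤ}
    (hε : Eps p (r ^ e) ε) {f : ↥(D.group (KK r))} (hf : f ∈ E) {w : M.Group} (hw : NR hp r w f) {b : Fin l → ℤ}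
    (hb : b ∈ SS hp γ ε)
    (h1 : ∀ j : ℕ, ¬ p ∣ j →
      cpr M.toCoxeterSystem hp.isCartan (rep M.toCoxeterSystem hp.isCartan (w ^ j) b) b = 1)
    (hst : ∀ v ∈ VE hp r E, ∃ j : ℕ,
      rep M.toCoxeterSystem hp.isCartan v (b - rep M.toCoxeterSystem hp.isCartan w b) =
        rep M.toCoxeterSystem hp.isCartan (w ^ j) (b - rep M.toCoxeterSystem hp.isCartan w b))
    {ρ : M.Group} {m₀ : Matrix.SpecialLinearGroup (Fin p) (KK r)} {d₀ : Fin p → (KK r)ˣ}
    (hm₀ : toGL m₀ = mono (Equiv.addRight (1 : Fin p)) d₀)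
    (hρ : ∀ ψ s, Ah hp ψ (fun i : Fin p => rep M.toCoxeterSystem hp.isCartan (w ^ (i : ℕ)) b) s → NR hp r ρ (ψ m₀)) :
    ∃ y : ↥(D.group (KK r)), y⁻¹ * τ y ∈ TT D (KK r) ∧ (∀ x ∈ E, ∃ v, NR hp r v (y⁻¹ * x * y)) ∧
      (∀ x ∈ E, x ∈ TT D (KK r) → y⁻¹ * x * y ∈ TT D (KK r)) ∧ NR hp r (ρ⁻¹ * w) (y⁻¹ * f * y) := by
  have := finite_W hp M.toCoxeterSystem
  have := Fintype.ofFinite M.Group
  have hwp := pow_w S hf hw
  have hwV : w ∈ VE hp r E := ⟨f, hf, hw⟩
  have hbL : b ∈ LL M.toCoxeterSystem hp := hb.1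
  have hbr := LL_root h _ _ hbL
  have hsucc : ∀ (i : Fin p), w ^ ((i + 1 : Fin p) : ℕ) = w ^ ((i : ℕ) + 1) := by
    intro i
    rw [val_succ', pow_mod_eq hwp]
  have hev : AFr D l (evw hp p w b) := by
    refine afr_of_simplex (F := form M.toCoxeterSystem hp.isCartan b b) hp h (fun i => ?_) evw_last fun i j => ?_
    · rw [evw_cast]; exact LL_rep _ _ hbL _
    · rw [evw_cast, evw_cast]
      by_cases hij : i = j
      · rw [if_pos hij, hij, form_rep]; ring
      · rw [if_neg hij]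
        -- `⟨w^i b, w^j b⟩ = ⟨w^(i + p - j) b, b⟩`
        have h3 : w ^ (i : ℕ) = w ^ (j : ℕ) * w ^ ((i : ℕ) + (p - j)) := by
          rw [← pow_add]
          have : (j : ℕ) + (i + (p - j)) = i + p := by have := j.2; omega
          rw [this, pow_add, hwp, mul_one]
        have h4 : ¬ p ∣ (i : ℕ) + (p - j) := by
          intro h5
          apply hij
          apply Fin.ext
          have hi := i.2
          have hj := j.2
          obtain ⟨c, hc⟩ := h5
          have hc2 : c < 2 := by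
            by_contra hcon
            have : p * 2 ≤ p * c := Nat.mul_le_mul_left p (by omega)
            omega
          have hc1 : 0 < c := by
            rcases Nat.eq_zero_or_pos c with h6 | h6
            · rw [h6, mul_zero] at hc; omega
            · exact h6
          have : c = 1 := by omega
          rw [this, mul_one] at hc
          omega
        rw [h3, rep_mul_apply, form_rep, two_form_cpr _ _ _ hbr, h1 _ h4]
        ring
  refine imp h2 hpr S hε hf hw hev (fun i => ?_) evw_last (fun i => ?_) (fun v hv => ?_) hm₀ (fun ψ s A => hρ ψ s ?_)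
  · rw [evw_cast, evw_cast, hsucc, pow_succ', rep_mul_apply]
  · induction i using Fin.lastCases with
    | last => rw [evw_last, map_zero, smul_zero]
    | cast i =>
      rw [evw_cast]
      exact (VE_SS S h (pow_mem hwV _) hb).2
  · obtain ⟨j, hj⟩ := hst v hv
    refine ⟨Fin.ofNat p j, fun i => ?_⟩
    have h3 : ∀ i : Fin p, evw hp p w b i.castSucc - evw hp p w b (i + 1).castSucc =
        rep M.toCoxeterSystem hp.isCartan (w ^ (i : ℕ)) (b - rep M.toCoxeterSystem hp.isCartan w b) := by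
      intro i
      rw [evw_cast, evw_cast, hsucc, pow_succ, map_sub, rep_mul_apply]
    rw [h3, h3, ← rep_mul_apply, VE_comm S hv (pow_mem hwV _), rep_mul_apply, hj, ← rep_mul_apply, ← pow_add]
    have h4 : w ^ ((i + Fin.ofNat p j : Fin p) : ℕ) = w ^ ((i : ℕ) + j) := by
      rw [Fin.val_add, Fin.val_ofNat, Nat.add_mod_mod, pow_mod_eq hwp]
    rw [h4]
  · have h3 : (fun i : Fin p => evw hp p w b i.castSucc) =
        fun i : Fin p => rep M.toCoxeterSystem hp.isCartan (w ^ (i : ℕ)) b := funext fun i => evw_cast i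
    rwa [h3] at A

end Simplex

section Three

variable {r : ℕ} [Fact r.Prime] {hp} {e : ℕ} {τ : MulAut ↥(D.group (KK r))}
  {γ : (Fin l → ℤ) ≃+ (Fin l → ℤ)} {E H : Subgroup ↥(D.group (KK r))}

theorem cyc3 : Equiv.swap (0 : Fin 3) 1 * Equiv.swap 1 2 = Equiv.addRight 1 := by decide

theorem cyc5 : Equiv.swap (0 : Fin 5) 1 * Equiv.swap 1 2 * Equiv.swap 2 3 * Equiv.swap 3 4 = Equiv.addRight 1 := by
  decide

/-- **The move, p = 3.** -/
theorem imp_three (h : HiList D) (hpr : 3 ≠ r) (S : Sit hp r 3 e τ γ E H) {ε : ℤ}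
    (hε : Eps 3 (r ^ e) ε) {f : ↥(D.group (KK r))} (hf : f ∈ E) {w : M.Group} (hw : NR hp r w f) {b : Fin l → ℤ}
    (hb : b ∈ SS hp γ ε)
    (h1 : cpr M.toCoxeterSystem hp.isCartan (rep M.toCoxeterSystem hp.isCartan w b) b = 1)
    (hst : ∀ v ∈ VE hp r E, ∃ j : ℕ,
      rep M.toCoxeterSystem hp.isCartan v (b - rep M.toCoxeterSystem hp.isCartan w b) =
        rep M.toCoxeterSystem hp.isCartan (w ^ j) (b - rep M.toCoxeterSystem hp.isCartan w b))
    {s₀ s₁ : M.Group} (hs₀ : IsRfl hp s₀ (b - rep M.toCoxeterSystem hp.isCartan w b))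
    (hs₁ : IsRfl hp s₁ (rep M.toCoxeterSystem hp.isCartan w (b - rep M.toCoxeterSystem hp.isCartan w b))) :
    ∃ y : ↥(D.group (KK r)), y⁻¹ * τ y ∈ TT D (KK r) ∧ (∀ x ∈ E, ∃ v, NR hp r v (y⁻¹ * x * y)) ∧
      (∀ x ∈ E, x ∈ TT D (KK r) → y⁻¹ * x * y ∈ TT D (KK r)) ∧
      NR hp r ((s₀ * s₁)⁻¹ * w) (y⁻¹ * f * y) := by
  have := finite_W hp M.toCoxeterSystem
  have := Fintype.ofFinite M.Group
  have : Fact (Nat.Prime 3) := ⟨Nat.prime_three⟩
  have hwp := pow_w S hf hw
  have hbr := LL_root h _ _ hb.1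
  have h01 : (0 : Fin 3) ≠ 1 := by decide
  have h12 : (1 : Fin 3) ≠ 2 := by decide
  refine imp_simplex (p := 3) h (by norm_num) hpr S hε hf hw hb ?_ hst (ρ := s₀ * s₁)
    (m₀ := wij h01 1 * wij h12 1) (d₀ := _) (by rw [map_mul, toGL_wij, toGL_wij, mono_mul, cyc3]) ?_
  · have h2 : cpr M.toCoxeterSystem hp.isCartan (rep M.toCoxeterSystem hp.isCartan (w ^ 2) b) b = 1 := by
      apply cpr_eq_of_form M.toCoxeterSystem hp.isCartan hbr
      have e1 : form M.toCoxeterSystem hp.isCartan (rep M.toCoxeterSystem hp.isCartan (w ^ 2) b) b =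
          form M.toCoxeterSystem hp.isCartan (rep M.toCoxeterSystem hp.isCartan w b) b := by
        rw [← form_rep _ _ w, ← rep_mul_apply, ← pow_succ', hwp, map_one, Module.End.one_apply, form_comm]
      rw [e1, two_form_cpr _ _ _ hbr, h1]
    intro j hj
    rw [← pow_mod_eq hwp j]
    have h3 : j % 3 = 1 ∨ j % 3 = 2 := by omega
    rcases h3 with h3 | h3
    · rw [h3, pow_one]; exact h1
    · rw [h3]; exact h2
  · intro ψ s A
    rw [map_mul]
    refine nr_mul (A.nr_wij h01 ?_ 1) (A.nr_wij h12 ?_ 1)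
    · have e1 : rep M.toCoxeterSystem hp.isCartan (w ^ ((0 : Fin 3) : ℕ)) b -
          rep M.toCoxeterSystem hp.isCartan (w ^ ((1 : Fin 3) : ℕ)) b = b - rep M.toCoxeterSystem hp.isCartan w b := by
        show rep M.toCoxeterSystem hp.isCartan (w ^ 0) b - rep M.toCoxeterSystem hp.isCartan (w ^ 1) b = _
        rw [pow_zero, pow_one, map_one, Module.End.one_apply]
      rw [e1]; exact hs₀
    · have e1 : rep M.toCoxeterSystem hp.isCartan (w ^ ((1 : Fin 3) : ℕ)) b -
          rep M.toCoxeterSystem hp.isCartan (w ^ ((2 : Fin 3) : ℕ)) b =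
            rep M.toCoxeterSystem hp.isCartan w (b - rep M.toCoxeterSystem hp.isCartan w b) := by
        show rep M.toCoxeterSystem hp.isCartan (w ^ 1) b - rep M.toCoxeterSystem hp.isCartan (w ^ 2) b = _
        rw [pow_one, pow_two, map_sub, rep_mul_apply]
      rw [e1]; exact hs₁

/-- **The move, p = 5.** -/
theorem imp_five (h : HiList D) (hpr : 5 ≠ r) (S : Sit hp r 5 e τ γ E H) {ε : ℤ}
    (hε : Eps 5 (r ^ e) ε) {f : ↥(D.group (KK r))} (hf : f ∈ E) {w : M.Group} (hw : NR hp r w f) {b : Fin l → ℤ}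
    (hb : b ∈ SS hp γ ε)
    (h1 : cpr M.toCoxeterSystem hp.isCartan (rep M.toCoxeterSystem hp.isCartan w b) b = 1)
    (h2 : cpr M.toCoxeterSystem hp.isCartan (rep M.toCoxeterSystem hp.isCartan (w ^ 2) b) b = 1)
    (hst : ∀ v ∈ VE hp r E, ∃ j : ℕ,
      rep M.toCoxeterSystem hp.isCartan v (b - rep M.toCoxeterSystem hp.isCartan w b) =
        rep M.toCoxeterSystem hp.isCartan (w ^ j) (b - rep M.toCoxeterSystem hp.isCartan w b))
    {s₀ s₁ s₂ s₃ : M.Group} (hs₀ : IsRfl hp s₀ (b - rep M.toCoxeterSystem hp.isCartan w b))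
    (hs₁ : IsRfl hp s₁ (rep M.toCoxeterSystem hp.isCartan w (b - rep M.toCoxeterSystem hp.isCartan w b)))
    (hs₂ : IsRfl hp s₂ (rep M.toCoxeterSystem hp.isCartan (w ^ 2) (b - rep M.toCoxeterSystem hp.isCartan w b)))
    (hs₃ : IsRfl hp s₃ (rep M.toCoxeterSystem hp.isCartan (w ^ 3) (b - rep M.toCoxeterSystem hp.isCartan w b))) :
    ∃ y : ↥(D.group (KK r)), y⁻¹ * τ y ∈ TT D (KK r) ∧ (∀ x ∈ E, ∃ v, NR hp r v (y⁻¹ * x * y)) ∧
      (∀ x ∈ E, x ∈ TT D (KK r) → y⁻¹ * x * y ∈ TT D (KK r)) ∧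
      NR hp r ((s₀ * s₁ * s₂ * s₃)⁻¹ * w) (y⁻¹ * f * y) := by
  have := finite_W hp M.toCoxeterSystem
  have := Fintype.ofFinite M.Group
  have : Fact (Nat.Prime 5) := ⟨Nat.prime_five⟩
  have hwp := pow_w S hf hw
  have hbr := LL_root h _ _ hb.1
  have h01 : (0 : Fin 5) ≠ 1 := by decide
  have h12 : (1 : Fin 5) ≠ 2 := by decide
  have h23 : (2 : Fin 5) ≠ 3 := by decide
  have h34 : (3 : Fin 5) ≠ 4 := by decide
  refine imp_simplex (p := 5) h (by norm_num) hpr S hε hf hw hb ?_ hst (ρ := s₀ * s₁ * s₂ * s₃)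
    (m₀ := wij h01 1 * wij h12 1 * wij h23 1 * wij h34 1) (d₀ := _)
    (by rw [map_mul, map_mul, map_mul, toGL_wij, toGL_wij, toGL_wij, toGL_wij, mono_mul, mono_mul, mono_mul, cyc5]) ?_
  · have hsym : ∀ i j : ℕ, i + j = 5 →
        form M.toCoxeterSystem hp.isCartan (rep M.toCoxeterSystem hp.isCartan (w ^ i) b) b =
          form M.toCoxeterSystem hp.isCartan (rep M.toCoxeterSystem hp.isCartan (w ^ j) b) b := by
      intro i j hij
      rw [← form_rep _ _ (w ^ j), ← rep_mul_apply, ← pow_add, add_comm j i, hij, hwp, map_one, Module.End.one_apply,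
        form_comm]
    have h3 : cpr M.toCoxeterSystem hp.isCartan (rep M.toCoxeterSystem hp.isCartan (w ^ 3) b) b = 1 := by
      apply cpr_eq_of_form M.toCoxeterSystem hp.isCartan hbr
      rw [hsym 3 2 rfl, two_form_cpr _ _ _ hbr, h2]
    have h4 : cpr M.toCoxeterSystem hp.isCartan (rep M.toCoxeterSystem hp.isCartan (w ^ 4) b) b = 1 := by
      apply cpr_eq_of_form M.toCoxeterSystem hp.isCartan hbr
      rw [hsym 4 1 rfl, two_form_cpr _ _ _ hbr, pow_one, h1]
    intro j hj
    rw [← pow_mod_eq hwp j]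
    have h5 : j % 5 = 1 ∨ j % 5 = 2 ∨ j % 5 = 3 ∨ j % 5 = 4 := by omega
    rcases h5 with h5 | h5 | h5 | h5
    · rw [h5, pow_one]; exact h1
    · rw [h5]; exact h2
    · rw [h5]; exact h3
    · rw [h5]; exact h4
  · intro ψ s A
    rw [map_mul, map_mul, map_mul]
    refine nr_mul (nr_mul (nr_mul (A.nr_wij h01 ?_ 1) (A.nr_wij h12 ?_ 1)) (A.nr_wij h23 ?_ 1)) (A.nr_wij h34 ?_ 1)
    · have e1 : rep M.toCoxeterSystem hp.isCartan (w ^ ((0 : Fin 5) : ℕ)) b -
          rep M.toCoxeterSystem hp.isCartan (w ^ ((1 : Fin 5) : ℕ)) b = b - rep M.toCoxeterSystem hp.isCartan w b := by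
        show rep M.toCoxeterSystem hp.isCartan (w ^ 0) b - rep M.toCoxeterSystem hp.isCartan (w ^ 1) b = _
        rw [pow_zero, pow_one, map_one, Module.End.one_apply]
      rw [e1]; exact hs₀
    · have e1 : rep M.toCoxeterSystem hp.isCartan (w ^ ((1 : Fin 5) : ℕ)) b -
          rep M.toCoxeterSystem hp.isCartan (w ^ ((2 : Fin 5) : ℕ)) b =
            rep M.toCoxeterSystem hp.isCartan w (b - rep M.toCoxeterSystem hp.isCartan w b) := by
        show rep M.toCoxeterSystem hp.isCartan (w ^ 1) b - rep M.toCoxeterSystem hp.isCartan (w ^ 2) b = _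
        rw [pow_one, pow_two, map_sub, rep_mul_apply]
      rw [e1]; exact hs₁
    · have e1 : rep M.toCoxeterSystem hp.isCartan (w ^ ((2 : Fin 5) : ℕ)) b -
          rep M.toCoxeterSystem hp.isCartan (w ^ ((3 : Fin 5) : ℕ)) b =
            rep M.toCoxeterSystem hp.isCartan (w ^ 2) (b - rep M.toCoxeterSystem hp.isCartan w b) := by
        show rep M.toCoxeterSystem hp.isCartan (w ^ 2) b - rep M.toCoxeterSystem hp.isCartan (w ^ 3) b = _
        rw [pow_succ w 2, map_sub, rep_mul_apply]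
      rw [e1]; exact hs₂
    · have e1 : rep M.toCoxeterSystem hp.isCartan (w ^ ((3 : Fin 5) : ℕ)) b -
          rep M.toCoxeterSystem hp.isCartan (w ^ ((4 : Fin 5) : ℕ)) b =
            rep M.toCoxeterSystem hp.isCartan (w ^ 3) (b - rep M.toCoxeterSystem hp.isCartan w b) := by
        show rep M.toCoxeterSystem hp.isCartan (w ^ 3) b - rep M.toCoxeterSystem hp.isCartan (w ^ 4) b = _
        rw [pow_succ w 3, map_sub, rep_mul_apply]
      rw [e1]; exact hs₃

end Three

end Cfsg.Agent.H46.X4
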