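import Cfsg.Agent.H496.Mono.Stmt
import Cfsg.Agent.H46.X4.Imp
import Cfsg.Agent.H875.Mono.SplitB

/-!
# S2187, non-toral `E`: frames without `60°` (M6b, helper46)

* `exists_good` : the potential argument (`|E ∩ T|` maximal, then the number of roots fixed by a bad element maximal);
* `PStab`, `PSplitA`, `PSplitB` : the lattice facts M4b, M4c;
* `noPlusA`, `noPlusB` : `PNoPlusA m`, `PNoPlusB m` from the lattice facts; `pNoPlusA`, `pNoPlusB` : without hypotheses.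
-/

set_option autoImplicit false
set_option linter.unusedSectionVars false

universe v

namespace Cfsg.Agent.H46.X4

open CoxeterSystem Cfsg Cfsg.Lie Cfsg.Lie.ChevalleyDatum
open Cfsg.Agent.ChevalleyStructure Cfsg.Agent.ChevalleyStructure.Elts Cfsg.Agent.ChevalleyStructure.CoxeterGeom
  Cfsg.Agent.ChevalleyStructure.CoxeterGeomTypes Cfsg.Agent.ChevalleyStructure.NPerm
open Cfsg.Agent.Tits.Roots Cfsg.Agent.Tits.Core Cfsg.Agent.Nodes Cfsg.Agent.Nodes.Reps Cfsg.Agent.Nodes.BNOf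
  Cfsg.Agent.Nodes.SubComb Cfsg.Agent.Nodes.RGDChev Cfsg.Agent.Nodes.Bruhat Cfsg.Agent.Nodes.Coroot
open Cfsg.Agent.KFacts.RgdField Cfsg.Agent.KFacts.RgdChevCoord
open Cfsg.Agent.BpExc Cfsg.Agent.BpExc.TorCent Cfsg.Agent.BpExc.TorChev Cfsg.Agent.BpExc.Tow
  Cfsg.Agent.BpExc.TowChev Cfsg.Agent.BpExc.Fr Cfsg.Agent.BpExc.LangFr
open Cfsg.Agent.H469.Exc Cfsg.Agent.H316.U6 Cfsg.Agent.H818.Gen Cfsg.Agent.H818.Mono Cfsg.Agent.H696.GmnToral
open Cfsg.Agent.H225.Gen (LL LL_rep LL_root LL_neg LL_long LL_refl)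
open Cfsg.Agent.H496.Mono Cfsg.Agent.H46.Gen
open Cfsg.Agent.H818.StrP.UTab

variable {D : ChevalleyDatum} {l : ℕ} {M : CoxeterMatrix (Fin l)} {hp : IsType D l M}

/-! ### the potential argument -/

section Good

variable {r : ℕ} [Fact r.Prime] {q : ℕ} {K₀ : Type v} [Group K₀]

/-- the part of `E` in the torus of the frame -/
def tp (E : Subgroup ↥(D.group (KK r))) (z : ↥(D.group (KK r))) : Set ↥E := {x | z⁻¹ * x.1 * z ∈ TT D (KK r)}

theorem mem_tp {E : Subgroup ↥(D.group (KK r))} {z : ↥(D.group (KK r))} {x : ↥E} :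
    x ∈ tp E z ↔ z⁻¹ * x.1 * z ∈ TT D (KK r) := Iff.rfl

/-- the roots fixed by `w` -/
def fx (hp : IsType D l M) (w : M.Group) : Set (Fin D.nroots) :=
  {s | rep M.toCoxeterSystem hp.isCartan w (vec D l s) = vec D l s}

/-- **The potential argument.** -/
theorem exists_good (m : MData hp r q K₀) {E : Subgroup ↥(D.group (KK r))} [Finite ↥E] {γ : (Fin l → ℤ) ≃+ (Fin l → ℤ)}
    {bad : M.Group → Prop}
    (hstep : ∀ z, NFrame m E z γ → ∀ f ∈ E, ∀ w, NR hp r w (z⁻¹ * f * z) → bad w →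
      ∃ y w', NFrame m E (z * y) γ ∧
        (∀ x ∈ E, z⁻¹ * x * z ∈ TT D (KK r) → (z * y)⁻¹ * x * (z * y) ∈ TT D (KK r)) ∧
        NR hp r w' ((z * y)⁻¹ * f * (z * y)) ∧ (w' = 1 ∨ bad w') ∧
        (∀ x, rep M.toCoxeterSystem hp.isCartan w x = x → rep M.toCoxeterSystem hp.isCartan w' x = x) ∧
        ∃ b, IsRoot M.toCoxeterSystem hp.isCartan b ∧ rep M.toCoxeterSystem hp.isCartan w' b = b ∧
          rep M.toCoxeterSystem hp.isCartan w b ≠ b)
    {z : ↥(D.group (KK r))} (hz : NFrame m E z γ) :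
    ∃ z', NFrame m E z' γ ∧ ∀ f ∈ E, ∀ w, NR hp r w (z'⁻¹ * f * z') → ¬ bad w := by
  have hE : ∀ z, (tp E z).ncard ≤ Nat.card ↥E := fun z => by
    rw [← Set.ncard_univ]
    exact Set.ncard_le_ncard (Set.subset_univ _) Set.finite_univ
  have hR : ∀ w : M.Group, (fx hp w).ncard ≤ D.nroots := fun w => by
    have h1 := Set.ncard_le_ncard (Set.subset_univ (fx hp w)) Set.finite_univ
    rwa [Set.ncard_univ, Nat.card_eq_fintype_card, Fintype.card_fin] at h1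
  -- inner induction
  have inner : ∀ n : ℕ, ∀ z, NFrame m E z γ → ∀ f ∈ E, ∀ w, NR hp r w (z⁻¹ * f * z) → bad w →
      D.nroots - (fx hp w).ncard = n → ∃ z', NFrame m E z' γ ∧ (tp E z).ncard < (tp E z').ncard := by
    intro n
    induction n using Nat.strong_induction_on with
    | _ n ih =>
      intro z hz f hf w hw hbad hn
      obtain ⟨y, w', hF, hT, hw', hor, hfix, b, hb, hb1, hb2⟩ := hstep z hz f hf w hw hbad
      have hsub : tp E z ⊆ tp E (z * y) := fun x hx => mem_tp.2 (hT x.1 x.2 (mem_tp.1 hx))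
      have hle := Set.ncard_le_ncard hsub (Set.toFinite _)
      rcases hor with h1 | h1
      · -- `f` is in the torus
        have hnot : ¬ tp E (z * y) ⊆ tp E z := by
          intro hcon
          have h2 : (⟨f, hf⟩ : ↥E) ∈ tp E (z * y) := by
            rw [h1] at hw'
            exact mem_tp.2 (nr_mem_T hw')
          have h2' := mem_tp.1 (hcon h2)
          have h3 := (nr_mem_T_iff hw).1 h2'
          apply hb2
          rw [h3, map_one, Module.End.one_apply]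
        exact ⟨z * y, hF, Set.ncard_lt_ncard (Set.ssubset_iff_exists.2
          ⟨hsub, Set.not_subset.1 hnot⟩) (Set.toFinite _)⟩
      · have hlt : (fx hp w).ncard < (fx hp w').ncard := by
          obtain ⟨s, hs, e⟩ := (isRoot_iff hp M.toCoxeterSystem _).1 hb
          refine Set.ncard_lt_ncard (Set.ssubset_iff_exists.2 ⟨fun s hs => hfix _ hs, ⟨s, hs⟩, ?_, ?_⟩) (Set.toFinite _)
          · show rep M.toCoxeterSystem hp.isCartan w' (vec D l s) = vec D l s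
            rw [e]; exact hb1
          · intro h3
            have h4 : rep M.toCoxeterSystem hp.isCartan w (vec D l s) = vec D l s := h3
            rw [e] at h4
            exact hb2 h4
        have h4 := hR w'
        obtain ⟨z', hz', h5⟩ := ih _ (by omega) (z * y) hF f hf w' hw' h1 rfl
        exact ⟨z', hz', lt_of_le_of_lt hle h5⟩
  -- outer induction
  have outer : ∀ n : ℕ, ∀ z, NFrame m E z γ → Nat.card ↥E - (tp E z).ncard = n →
      ∃ z', NFrame m E z' γ ∧ ∀ f ∈ E, ∀ w, NR hp r w (z'⁻¹ * f * z') → ¬ bad w := by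
    intro n
    induction n using Nat.strong_induction_on with
    | _ n ih =>
      intro z hz hn
      by_cases hc : ∀ f ∈ E, ∀ w, NR hp r w (z⁻¹ * f * z) → ¬ bad w
      · exact ⟨z, hz, hc⟩
      · push Not at hc
        obtain ⟨f, hf, w, hw, hbad⟩ := hc
        obtain ⟨z', hz', h1⟩ := inner _ z hz f hf w hw hbad rfl
        have h2 := hE z'
        exact ih _ (by omega) z' hz' rfl
  exact outer _ z hz rfl

end Good

/-! ### the lattice facts (M4b, M4c) -/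

/-- **M4b** -/
def PStab (hp : IsType D l M) : Prop :=
  ∀ w v : M.Group, w * v = v * w → w ^ 3 = 1 → v ^ 3 = 1 → ∀ b ∈ LL M.toCoxeterSystem hp,
    cpr M.toCoxeterSystem hp.isCartan (rep M.toCoxeterSystem hp.isCartan w b) b = 1 →
    ∃ j : ℕ, rep M.toCoxeterSystem hp.isCartan v (b - rep M.toCoxeterSystem hp.isCartan w b) =
      rep M.toCoxeterSystem hp.isCartan (w ^ j) (b - rep M.toCoxeterSystem hp.isCartan w b)

/-- **M4c**, `γ = ε` -/
def PSplitA (hp : IsType D l M) : Prop :=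
  ∀ w : M.Group, w ^ 3 = 1 → ∀ b ∈ LL M.toCoxeterSystem hp,
    cpr M.toCoxeterSystem hp.isCartan (rep M.toCoxeterSystem hp.isCartan w b) b = 1 →
    ∀ s₀ s₁ : M.Group, IsRfl hp s₀ (b - rep M.toCoxeterSystem hp.isCartan w b) →
      IsRfl hp s₁ (rep M.toCoxeterSystem hp.isCartan w (b - rep M.toCoxeterSystem hp.isCartan w b)) →
      (∀ x, rep M.toCoxeterSystem hp.isCartan w x = x →
        rep M.toCoxeterSystem hp.isCartan ((s₀ * s₁)⁻¹ * w) x = x) ∧
      rep M.toCoxeterSystem hp.isCartan ((s₀ * s₁)⁻¹ * w) b = b ∧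
      ((s₀ * s₁)⁻¹ * w = 1 ∨ ∃ b' ∈ LL M.toCoxeterSystem hp,
        cpr M.toCoxeterSystem hp.isCartan (rep M.toCoxeterSystem hp.isCartan ((s₀ * s₁)⁻¹ * w) b') b' = 1)

/-- **M4c**, `E₆`, `γ = ε ρ` -/
def PSplitB {M : CoxeterMatrix (Fin 6)} (hp : IsType chevE6 6 M) : Prop :=
  ∀ (γ : (Fin 6 → ℤ) ≃+ (Fin 6 → ℤ)) (ε : ℤ), (ε = 1 ∨ ε = -1) →
    (∀ x, γ x = ε • H720.TwFr.permE H720.TwFr.rho6 x) →
    ∀ w : M.Group, w ^ 3 = 1 →
    (∀ x, γ (rep M.toCoxeterSystem hp.isCartan w x) = rep M.toCoxeterSystem hp.isCartan w (γ x)) →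
    ∀ b ∈ SS hp γ ε, cpr M.toCoxeterSystem hp.isCartan (rep M.toCoxeterSystem hp.isCartan w b) b = 1 →
    ∀ s₀ s₁ : M.Group, IsRfl hp s₀ (b - rep M.toCoxeterSystem hp.isCartan w b) →
      IsRfl hp s₁ (rep M.toCoxeterSystem hp.isCartan w (b - rep M.toCoxeterSystem hp.isCartan w b)) →
      (s₀ * s₁)⁻¹ * w = 1

section Main

variable {r : ℕ} [Fact r.Prime] {q : ℕ} {K₀ : Type v} [Group K₀]

theorem VE_gam' {p e : ℕ} {τ : MulAut ↥(D.group (KK r))} {γ : (Fin l → ℤ) ≃+ (Fin l → ℤ)}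
    {E H : Subgroup ↥(D.group (KK r))} (S : Sit hp r p e τ γ E H) {v : M.Group} (hv : v ∈ VE hp r E)
    (x : Fin l → ℤ) : γ (rep M.toCoxeterSystem hp.isCartan v x) = rep M.toCoxeterSystem hp.isCartan v (γ x) := by
  conv_lhs => rw [eq_sum_sr x]
  conv_rhs => rw [eq_sum_sr x]
  rw [map_sum, map_sum, map_sum, map_sum]
  refine Finset.sum_congr rfl fun i _ => ?_
  rw [map_zsmul, map_zsmul, map_zsmul, map_zsmul, VE_gam S hv (isRoot_sr _ _ i)]

/-- the step of the potential argument, for any consequence of the splitting -/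
theorem noPlus_of (h : HiList D) (hs : PStab hp) (m : MData hp r q K₀) {γ : (Fin l → ℤ) ≃+ (Fin l → ℤ)} {ε : ℤ}
    (hsplit : ∀ w : M.Group, w ^ 3 = 1 →
      (∀ x, γ (rep M.toCoxeterSystem hp.isCartan w x) = rep M.toCoxeterSystem hp.isCartan w (γ x)) →
      ∀ b ∈ SS hp γ ε, cpr M.toCoxeterSystem hp.isCartan (rep M.toCoxeterSystem hp.isCartan w b) b = 1 →
      ∀ s₀ s₁ : M.Group, IsRfl hp s₀ (b - rep M.toCoxeterSystem hp.isCartan w b) →
        IsRfl hp s₁ (rep M.toCoxeterSystem hp.isCartan w (b - rep M.toCoxeterSystem hp.isCartan w b)) →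
        (∀ x, rep M.toCoxeterSystem hp.isCartan w x = x →
          rep M.toCoxeterSystem hp.isCartan ((s₀ * s₁)⁻¹ * w) x = x) ∧
        rep M.toCoxeterSystem hp.isCartan ((s₀ * s₁)⁻¹ * w) b = b ∧
        ((s₀ * s₁)⁻¹ * w = 1 ∨ ∃ b' ∈ SS hp γ ε,
          cpr M.toCoxeterSystem hp.isCartan (rep M.toCoxeterSystem hp.isCartan ((s₀ * s₁)⁻¹ * w) b') b' = 1)) :
    PNoPlusAt m γ ε := by
  intro E hE hσ hr2 hr3 hq z hε hz
  have := finite_W hp M.toCoxeterSystem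
  have hfin : Finite ↥E := by
    have := m.fin
    refine Finite.of_injective (fun x : ↥E => (⟨x.1, hσ x.1 x.2⟩ : ↥(fixedSubgroup m.σ))) fun a b hab => ?_
    exact Subtype.ext (congrArg (fun t : ↥(fixedSubgroup m.σ) => t.1) hab)
  have hε' : Eps 3 (r ^ m.e) ε := by rw [m.hq]; exact hε
  have key : ∃ z', NFrame m E z' γ ∧ ∀ f ∈ E, ∀ w, NR hp r w (z'⁻¹ * f * z') → ¬ ∃ b ∈ SS hp γ ε,
      cpr M.toCoxeterSystem hp.isCartan (rep M.toCoxeterSystem hp.isCartan w b) b = 1 := by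
    refine exists_good m (bad := fun w => ∃ b ∈ SS hp γ ε,
      cpr M.toCoxeterSystem hp.isCartan (rep M.toCoxeterSystem hp.isCartan w b) b = 1) ?_ hz
    rintro z hz f hf w hw ⟨b, hb, hb1⟩
    set E' := E.map (MulAut.conj z⁻¹).toMonoidHom with hE'
    have S := hz.sit hE hσ
    have hmem : ∀ x ∈ E, z⁻¹ * x * z ∈ E' := by
      intro x hx
      refine ⟨x, hx, ?_⟩
      show z⁻¹ * x * z⁻¹⁻¹ = _
      rw [inv_inv]
    have hbr := LL_root h _ _ hb.1
    have hfE := hmem f hf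
    have hw3 := pow_w S hfE hw
    have hcr : IsRoot M.toCoxeterSystem hp.isCartan (b - rep M.toCoxeterSystem hp.isCartan w b) := by
      have h2 := (isRoot_refl M.toCoxeterSystem hp.isCartan (hbr.act w) hbr).neg
      rwa [hb1, one_smul, neg_sub] at h2
    obtain ⟨s₀, hs₀⟩ := exists_rfl' hp hcr
    obtain ⟨s₁, hs₁⟩ := exists_rfl' hp (hcr.act w)
    obtain ⟨y, hy1, hy2, hy3, hy4⟩ := imp_three h hr3 S hε' hfE hw hb hb1
      (fun v hv => hs w v (VE_comm S ⟨_, hfE, hw⟩ hv) hw3 (VE_pow S hv) b hb.1 hb1) hs₀ hs₁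
    obtain ⟨h3, h4, h5⟩ := hsplit w hw3 (VE_gam' S ⟨_, hfE, hw⟩) b hb hb1 s₀ s₁ hs₀ hs₁
    have e2 : ∀ x, (z * y)⁻¹ * x * (z * y) = y⁻¹ * (z⁻¹ * x * z) * y := fun x => by group
    refine ⟨y, (s₀ * s₁)⁻¹ * w, hz.change hy1 fun x hx => hy2 _ (hmem x hx), fun x hx hxT => ?_, ?_, h5, h3, b, hbr, h4,
      fun hcon => ?_⟩
    · rw [e2]
      exact hy3 _ (hmem x hx) hxT
    · rw [e2]
      exact hy4
    · rw [hcon, cpr_self _ _ hbr] at hb1
      norm_num at hb1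
  obtain ⟨z', hz', h1⟩ := key
  refine ⟨z', hz', ?_⟩
  rintro _ ⟨f, hf, rfl⟩ w hw b hb hcon
  have e1 : (MulAut.conj z'⁻¹).toMonoidHom f = z'⁻¹ * f * z' := by
    show z'⁻¹ * f * z'⁻¹⁻¹ = _
    rw [inv_inv]
  rw [e1] at hw
  exact h1 f hf w hw ⟨b, hb, hcon⟩

/-- **M6b**, `γ = ε` -/
theorem noPlusA (h : HiList D) (hs : PStab hp) (hA : PSplitA hp) (m : MData hp r q K₀) : PNoPlusA m := by
  intro γ ε hγ
  refine noPlus_of h hs m fun w hw3 _ b hb hb1 s₀ s₁ hs₀ hs₁ => ?_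
  obtain ⟨h1, h2, h3⟩ := hA w hw3 b hb.1 hb1 s₀ s₁ hs₀ hs₁
  refine ⟨h1, h2, ?_⟩
  rcases h3 with h3 | ⟨b', hb', h4⟩
  · exact Or.inl h3
  · exact Or.inr ⟨b', ⟨hb', hγ b'⟩, h4⟩

/-- **M6b**, `E₆`, `γ = ε ρ` -/
theorem noPlusB {M : CoxeterMatrix (Fin 6)} {hp : IsType chevE6 6 M} (h : HiList chevE6) (hs : PStab hp)
    (hB : PSplitB hp) (m : MData hp r q K₀) : PNoPlusB m := by
  intro γ ε hγ E hE hσ hr2 hr3 hq z hε hz
  refine noPlus_of h hs m (fun w hw3 hwγ b hb hb1 s₀ s₁ hs₀ hs₁ => ?_) E hE hσ hr2 hr3 hq z hε hz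
  have h1 := hB γ ε hε.1 hγ w hw3 hwγ b hb hb1 s₀ s₁ hs₀ hs₁
  rw [h1]
  exact ⟨fun x _ => by rw [map_one, Module.End.one_apply], by rw [map_one, Module.End.one_apply], Or.inl rfl⟩

theorem pStab (h : HiList D) (hp : IsType D l M) : PStab hp :=
  fun _ _ hc hw hv _ hb h1 => H875.Mono.stab h hp M.toCoxeterSystem hc hw hv hb h1

theorem pSplitA (h : HiList D) (hp : IsType D l M) : PSplitA hp :=
  fun _ hw _ hb h1 _ _ h0 h1' => H875.Mono.splitA h hp M.toCoxeterSystem hw hb h1 h0 h1'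

theorem pSplitB {M : CoxeterMatrix (Fin 6)} (hp : IsType chevE6 6 M) : PSplitB hp :=
  fun _ _ hε hγ _ hw hγw _ hb h1 _ _ h0 h1' => H875.Mono.splitB hp hε hγ hw hγw hb h1 h0 h1'

/-- **M6b**, `γ = ε` -/
theorem pNoPlusA (h : HiList D) (m : MData hp r q K₀) : PNoPlusA m := noPlusA h (pStab h hp) (pSplitA h hp) m

/-- **M6b**, `E₆`, `γ = ε ρ` -/
theorem pNoPlusB {M : CoxeterMatrix (Fin 6)} {hp : IsType chevE6 6 M} (m : MData hp r q K₀) : PNoPlusB m := by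
  have h : HiList chevE6 := by simp [HiList]
  exact noPlusB h (pStab h hp) (pSplitB hp) m

end Main

end Cfsg.Agent.H46.X4
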